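import Cfsg.Agent.Blocks.Defect.Covered
import Cfsg.Agent.Blocks.Defect.Lifts
import Cfsg.Agent.Blocks.Defect.FirstMain
import Cfsg.Agent.Blocks.DefectDegree
import Cfsg.Agent.Blocks.HeightZero.Scaled
import Cfsg.Agent.Constrained.HallHigman
import Cfsg.Agent.Chars.Basic.ClassSum
import Cfsg.Agent.Chars.Basic.Columns

/-!
# Blocks over an invariant character of a normal `p'`-subgroup (Fong)

An irreducible character of a normal subgroup of order prime to `p` is a block by itself.  When it
is invariant its idempotent is central with nonzero coefficient at the identity, so no Brauer map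
kills it; in a `p`-solvable group, over the `p'`-core, it is the idempotent of a single block.
-/

set_option autoImplicit false
open scoped MonoidAlgebra
open MonoidAlgebra (single)
open Cfsg

namespace CfsgLib.FongBlock

open CfsgLib.Blocks

variable {p : ℕ} {M : Ideal AlgInt}

/-- A character of a group of order prime to `p` is a block. -/
theorem isPBlock_singleton {N : Type*} [Group N] [Finite N] (hM : IsPModular p M)
    (hN : ¬ p ∣ Nat.card N) (θ : IrrCharacter N) :
    IsPBlock M ({θ} : Set (IrrCharacter N)) := by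
  classical
  haveI := isMaximal_of_isPModular hM
  haveI := Fintype.ofFinite N
  refine ⟨θ, Set.ext fun ψ => ⟨fun h => ?_, fun h => ?_⟩⟩
  · rw [Set.mem_singleton_iff] at h
    subst h
    exact self_mem_blockOf ψ
  · have hchar := isCharacter_of_isIrrCharacter θ.2
    have hz : charIdem (θ : N → ℂ) ∈ centerO M N := by
      refine ⟨isCentralElt_charIdem hchar, fun g => ?_⟩
      rw [charIdem, coeff_ofFun, div_eq_mul_inv]
      exact (localRing M).mul_mem
        ((localRing M).mul_mem (HeightZero.memLocalRing_apply hchar _) (HeightZero.memLocalRing_apply hchar _))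
        (memLocalRing_inv_natCast hM hN)
    have hc := congr_omega_of_sameBlock hz (show SameBlock M (θ : N → ℂ) (ψ : N → ℂ) from h)
    rw [omega_charIdem, omega_charIdem, if_pos rfl] at hc
    by_contra hne
    rw [if_neg (by simpa using hne)] at hc
    exact not_memLocalIdeal_one (M := M) (by simpa [Congr] using hc)

variable [hMmax : M.IsMaximal] {G : Type*} [Group G] [Fintype G] {N : Subgroup G}

/-- The idempotent of a character of a `p'`-subgroup does not vanish at the identity. -/
theorem coeff_one_ne_zero (hM : IsPModular p M) (hN : ¬ p ∣ Nat.card N) (θ : IrrCharacter N) :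
    (subEl M N ({θ} : Set (IrrCharacter N))).coeff 1 ≠ 0 := by
  classical
  haveI := Fintype.ofFinite N
  have hB := isPBlock_singleton hM hN θ
  rw [coeff_subEl, Ne, redC_eq_zero_iff (memLocalRing_subgroupBlockCoeff hB 1)]
  have hd : (charDegree (θ : N → ℂ) : ℂ) = (θ : N → ℂ) 1 :=
    Chars.charDegree_cast (isCharacter_of_isIrrCharacter θ.2)
  have hnd : ¬ p ∣ charDegree (θ : N → ℂ) := fun h => hN (h.trans (Chars.charDegree_dvd_card θ))
  have hval : subgroupBlockCoeff N ({θ} : Set (IrrCharacter N)) 1 =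
      ((charDegree (θ : N → ℂ) * charDegree (θ : N → ℂ) : ℕ) : ℂ) / (Nat.card N : ℕ) := by
    rw [subgroupBlockCoeff, dif_pos N.one_mem, blockCoeff, finsum_mem_singleton,
      show (⟨1, N.one_mem⟩ : N) = 1 from rfl, Nat.cast_mul, ← hd, Complex.conj_natCast]
    ring
  rw [hval]
  refine HeightZero.not_memLocalIdeal_natCast_div hM
    (mul_ne_zero (Chars.charDegree_pos θ).ne' (Chars.charDegree_pos θ).ne') Nat.card_pos.ne' ?_
  rw [Nat.factorization_eq_zero_of_not_dvd hN, Nat.factorization_eq_zero_of_not_dvd]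
  exact fun h => (hM.1.dvd_mul.1 h).elim hnd hnd

/-- No Brauer map kills the idempotent. -/
theorem brTrunc_ne_zero (hM : IsPModular p M) (hN : ¬ p ∣ Nat.card N) (θ : IrrCharacter N)
    (Q : Subgroup G) : brTrunc Q (subEl M N ({θ} : Set (IrrCharacter N))) ≠ 0 := fun h =>
  coeff_one_ne_zero hM hN θ (by
    rw [← coeff_brTrunc_of_mem _ (Subgroup.one_mem (Subgroup.centralizer (Q : Set G))), h]
    simp)

variable [hNn : N.Normal]

/-- `θ` is invariant under conjugation. -/
def IsInvariant (θ : IrrCharacter N) : Prop :=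
  ∀ (g : G) (n : N), (θ : N → ℂ) ⟨g * n * g⁻¹, hNn.conj_mem n n.2 g⟩ = (θ : N → ℂ) n

omit [Fintype G] in
theorem subgroupBlockCoeff_conj_of_invariant [Finite G] {θ : IrrCharacter N} (hinv : IsInvariant θ)
    (g x : G) :
    subgroupBlockCoeff N ({θ} : Set (IrrCharacter N)) (g * x * g⁻¹) =
      subgroupBlockCoeff N ({θ} : Set (IrrCharacter N)) x := by
  classical
  by_cases hx : x ∈ N
  · have hx' : g * x * g⁻¹ ∈ N := hNn.conj_mem x hx g
    simp only [subgroupBlockCoeff, dif_pos hx, dif_pos hx', blockCoeff, finsum_mem_singleton]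
    rw [hinv g ⟨x, hx⟩]
  · have hx' : g * x * g⁻¹ ∉ N := fun h => hx (by
      have := hNn.conj_mem _ h g⁻¹
      simpa [mul_assoc] using this)
    simp only [subgroupBlockCoeff, dif_neg hx, dif_neg hx']

/-- The idempotent of an invariant character is central in `k G`. -/
theorem subEl_mem_centerIn {θ : IrrCharacter N} (hinv : IsInvariant θ) :
    subEl M N ({θ} : Set (IrrCharacter N)) ∈ centerIn (kres M) ⊤ :=
  ⟨isSupportedOn_top _, fun g _ x => by
    rw [coeff_subEl, coeff_subEl, subgroupBlockCoeff_conj_of_invariant hinv]⟩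

variable [Fintype N]

set_option linter.unusedSectionVars false
set_option linter.style.haveILetI false

/-- In a block, lying over `θ` is lying below the idempotent of `θ`. -/
theorem over_iff (hM : IsPModular p M) (hN : ¬ p ∣ Nat.card N) {θ : IrrCharacter N}
    (hinv : IsInvariant θ) {B : Set (IrrCharacter G)} (hB : IsPBlock M B) {χ : IrrCharacter G}
    (hχ : χ ∈ B) :
    classInner (fun n : N => (χ : G → ℂ) n) (θ : N → ℂ) ≠ 0 ↔
      subEl M N ({θ} : Set (IrrCharacter N)) * topEl M B = topEl M B := by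
  have he := isBlockIdem_topEl hB (M := M)
  have hb := isPBlock_singleton hM hN θ
  have hf := isBlockIdem_subEl hb (M := M)
  have hfC := subEl_mem_centerIn (M := M) hinv
  constructor
  · intro hcov
    refine (he.2.2.2 _ hfC hf.2.1).resolve_left fun h0 => ?_
    apply topEl_mul_subEl_ne_zero hB hb hχ (Set.mem_singleton θ) hcov
    rw [(commute_centerIn he.1 hfC).eq, h0]
  · intro hfe
    obtain ⟨θ', hθ'⟩ := BlocksCover.exists_constituent χ N
    by_contra hcov
    have hne : θ ≠ θ' := fun h => (h ▸ hθ') hcov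
    have hb' := isPBlock_singleton hM hN θ'
    apply topEl_mul_subEl_ne_zero hB hb' hχ (Set.mem_singleton θ') hθ'
    have horth : subEl M N ({θ} : Set (IrrCharacter N)) * subEl M N ({θ'} : Set (IrrCharacter N)) = 0 :=
      hf.orthogonal (isBlockIdem_subEl hb') fun h =>
        hne (Set.singleton_injective (subEl_injective hb hb' h))
    rw [← hfe, ← (commute_centerIn he.1 hfC).eq, mul_assoc, horth, mul_zero]

/-- If only one block has its idempotent below that of `θ`, the two idempotents are equal and the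
block consists of the characters over `θ`. -/
theorem exists_block_eq_subEl (hM : IsPModular p M) (hN : ¬ p ∣ Nat.card N) {θ : IrrCharacter N}
    (hinv : IsInvariant θ)
    (huniq : ∀ e e' : MonoidAlgebra (kres M) G, IsBlockIdem ⊤ e → IsBlockIdem ⊤ e' →
      subEl M N ({θ} : Set (IrrCharacter N)) * e = e →
      subEl M N ({θ} : Set (IrrCharacter N)) * e' = e' → e = e') :
    ∃ B, IsPBlock M B ∧ topEl M B = subEl M N ({θ} : Set (IrrCharacter N)) ∧
      ∀ χ : IrrCharacter G, χ ∈ B ↔ classInner (fun n : N => (χ : G → ℂ) n) (θ : N → ℂ) ≠ 0 := by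
  classical
  set f := subEl M N ({θ} : Set (IrrCharacter N)) with hfdef
  have hf := isBlockIdem_subEl (isPBlock_singleton hM hN θ) (M := M)
  have hfC := subEl_mem_centerIn (M := M) hinv
  obtain ⟨χ₀, hχ₀⟩ := BlocksCover.exists_irr_over N θ
  have hB : IsPBlock M (blockOf M (χ₀ : G → ℂ)) := ⟨χ₀, rfl⟩
  set B := blockOf M (χ₀ : G → ℂ)
  have he := isBlockIdem_topEl hB (M := M)
  have hfe : f * topEl M B = topEl M B :=
    (over_iff hM hN hinv hB (self_mem_blockOf χ₀)).mp hχ₀
  refine ⟨B, hB, ?_, fun χ => ⟨fun hχ => (over_iff hM hN hinv hB hχ).mpr hfe, fun hχ => ?_⟩⟩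
  · symm
    refine (eq_sum_filter_blockIdems (i := f) hfC hf.idem).trans ?_
    refine Finset.sum_eq_single_of_mem _ (Finset.mem_filter.mpr ⟨mem_blockIdems.mpr he, hfe⟩) ?_
    intro e hmem hne
    obtain ⟨he', hfe'⟩ := Finset.mem_filter.mp hmem
    exact absurd (huniq _ _ (mem_blockIdems.mp he') he hfe' hfe) hne
  · have hB' : IsPBlock M (blockOf M (χ : G → ℂ)) := ⟨χ, rfl⟩
    have hfe' := (over_iff hM hN hinv hB' (self_mem_blockOf χ)).mp hχ
    rw [← topEl_injective hB' hB (huniq _ _ (isBlockIdem_topEl hB') he hfe' hfe)]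
    exact self_mem_blockOf χ

/-- Over a normal `p'`-subgroup of `p`-power index the invariant character gives a block. -/
theorem isBlockIdem_of_index (hM : IsPModular p M) (hN : ¬ p ∣ Nat.card N) {θ : IrrCharacter N}
    (hinv : IsInvariant θ) {k : ℕ} (hk : N.index = p ^ k) :
    ∃ B, IsPBlock M B ∧ topEl M B = subEl M N ({θ} : Set (IrrCharacter N)) := by
  obtain ⟨B, h1, h2, -⟩ := exists_block_eq_subEl hM hN hinv fun e e' he he' hfe hfe' => by
    obtain ⟨C, hC, rfl⟩ := exists_topEl_eq he
    obtain ⟨C', hC', rfl⟩ := exists_topEl_eq he'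
    obtain ⟨χ, hχ⟩ := nonempty_of_isPBlock hC
    obtain ⟨χ', hχ'⟩ := nonempty_of_isPBlock hC'
    have h := (BlocksCover.constituent_iff_centralChar χ θ).mp ((over_iff hM hN hinv hC hχ).mpr hfe)
    have h' :=
      (BlocksCover.constituent_iff_centralChar χ' θ).mp ((over_iff hM hN hinv hC' hχ').mpr hfe')
    have hsame : SameBlock M (χ : G → ℂ) (χ' : G → ℂ) :=
      BlocksCover.sameBlock_of_congr_on_regular hM N
        (fun g hg => BlocksCover.mem_of_index_prime_pow hM.1 N hk g hg) χ χ' fun n => by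
          rw [h n, h' n]
          exact congr_refl _
    rw [eq_blockOf_of_mem hC hχ, eq_blockOf_of_mem hC' hχ', blockOf_eq_of_sameBlock hsame]
  exact ⟨B, h1, h2⟩

/-- The same for a subgroup `K` between, with the idempotent seen in `k G`. -/
theorem isBlockIdem_subgroup (hM : IsPModular p M) (hN : ¬ p ∣ Nat.card N) {θ : IrrCharacter N}
    (hinv : IsInvariant θ) {K : Subgroup G} (hNK : N ≤ K) {k : ℕ} (hk : N.relIndex K = p ^ k) :
    IsBlockIdem K (subEl M N ({θ} : Set (IrrCharacter N))) := by
  classical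
  haveI := Fintype.ofFinite K
  haveI := Fintype.ofFinite (N.subgroupOf K)
  let φ : N ≃* N.subgroupOf K := (Subgroup.subgroupOfEquivOfLe hNK).symm
  set θ' : IrrCharacter (N.subgroupOf K) := Chars.irrEquiv φ θ with hθ'
  have hN' : ¬ p ∣ Nat.card (N.subgroupOf K) := by rwa [← Nat.card_congr φ.toEquiv]
  have hinv' : IsInvariant θ' := by
    intro g n
    rw [hθ', Chars.irrEquiv_apply, Chars.irrEquiv_apply]
    exact hinv (g : G) (φ.symm n)
  obtain ⟨B, hB, hBe⟩ := isBlockIdem_of_index hM hN' hinv' hk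
  have himg : mapBlock φ ({θ} : Set (IrrCharacter N)) = {θ'} := Set.image_singleton
  have h1 : subEl M K B = emb (kres M) K.subtype (topEl M B) := by
    rw [subEl, topEl, blockEl, blockEl, ← emb_comp]
    rfl
  have h2 : emb (kres M) K.subtype (subEl M (N.subgroupOf K) ({θ'} : Set (IrrCharacter (N.subgroupOf K)))) =
      subEl M N ({θ} : Set (IrrCharacter N)) := by
    rw [subEl, subEl, ← himg, blockEl, ← emb_comp]
    exact blockEl_mapBlock φ N.subtype_injective
      (fun a b h => Subtype.ext (Subtype.ext h) :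
        Function.Injective (K.subtype.comp (N.subgroupOf K).subtype))
      (fun x => rfl) _
  rw [← h2, ← hBe, ← h1]
  exact isBlockIdem_subEl hB

/-- Fong's block over an invariant character of the `p'`-core, for a group in which the centralizer
of a Sylow subgroup of `O_{p',p}` lies in `O_{p',p}`. -/
theorem exists_block_of_centralizer_le [Fact p.Prime] (hM : IsPModular p M)
    (hNdef : N = pPrimeCore p G) {θ : IrrCharacter N} (hinv : IsInvariant θ)
    (S : Sylow p (pPrimePCore p G))
    (hCK : Subgroup.centralizer (((S : Subgroup (pPrimePCore p G)).map (pPrimePCore p G).subtype :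
      Subgroup G) : Set G) ≤ pPrimePCore p G) :
    ∃ B : Set (IrrCharacter G), IsPBlock M B ∧
      topEl M B = subEl M N ({θ} : Set (IrrCharacter N)) ∧
      (∀ χ : IrrCharacter G, χ ∈ B ↔ classInner (fun n : N => (χ : G → ℂ) n) (θ : N → ℂ) ≠ 0) ∧
      (∀ P : Sylow p G, IsDefectGroup p M B (P : Subgroup G)) ∧
      ∀ D : Subgroup G, IsDefectGroup p M B D → ∃ P : Sylow p G, D = (P : Subgroup G) := by
  classical
  haveI := charP_kres hM
  have hN : ¬ p ∣ Nat.card N := by rw [hNdef]; exact Constrained.pPrimeCore_not_dvd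
  have hNK : N ≤ (pPrimePCore p G) := by rw [hNdef]; exact Constrained.pPrimeCore_le_pPrimePCore
  obtain ⟨k, hk⟩ : ∃ k, N.relIndex (pPrimePCore p G) = p ^ k := by
    subst hNdef
    rw [Constrained.relIndex_eq_card_map, Constrained.map_pPrimePCore]
    exact IsPGroup.iff_card.mp Constrained.isPGroup_pCore
  set f := subEl M N ({θ} : Set (IrrCharacter N)) with hfdef
  have hfC : f ∈ centerIn (kres M) ⊤ := subEl_mem_centerIn hinv
  have hfK : IsBlockIdem (pPrimePCore p G) f := isBlockIdem_subgroup hM hN hinv hNK hk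
  set Q := (S : Subgroup (pPrimePCore p G)).map (pPrimePCore p G).subtype with hQdef
  have hsyl : IsSylowIn p Q (pPrimePCore p G) := isSylowIn_map_sylow S
  have hfQ : IsDefectGroupIdem p (pPrimePCore p G) f Q :=
    ⟨hsyl.1, hsyl.2.1, brTrunc_ne_zero hM hN θ Q, fun R hR hRp _ => hsyl.2.2 R hR hRp⟩
  have hL : IsBlockIdem ((pPrimePCore p G) ⊓ Subgroup.normalizer (Q : Set G)) (brTrunc Q f) :=
    hfQ.trunc_isBlockIdem hfK
  have hkey : ∀ e, IsBlockIdem ⊤ e → f * e = e → brTrunc Q e = brTrunc Q f := by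
    intro e he hfe
    have hef : e * f = e := by rw [(commute_centerIn he.1 hfC).eq, hfe]
    have hne : brTrunc Q e ≠ 0 :=
      brTrunc_ne_zero_of_covers hfK hfQ.2.1 hfQ.1 hfQ.2.2.1 he.1 he.idem
        (by rw [hef]; exact he.ne_zero)
    have hmem : brTrunc Q e ∈ centerIn (kres M) ((pPrimePCore p G) ⊓ Subgroup.normalizer (Q : Set G)) :=
      ⟨isSupportedOn_mono (isSupportedOn_brTrunc Q e)
          (le_inf hCK (Subgroup.centralizer_le_normalizer _)),
        (he.1.2.mono le_top).brTrunc inf_le_right⟩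
    have hidem : brTrunc Q e * brTrunc Q e = brTrunc Q e := by
      rw [← brTrunc_mul hfQ.2.1 (he.1.2.mono le_top) (he.1.2.mono le_top), he.idem]
    have hmul : brTrunc Q e * brTrunc Q f = brTrunc Q e := by
      rw [← brTrunc_mul hfQ.2.1 (he.1.2.mono le_top) (hfC.2.mono le_top), hef]
    rcases hL.2.2.2 _ hmem hidem with h | h
    · exact absurd (hmul.symm.trans h) hne
    · exact hmul.symm.trans h
  obtain ⟨B, hB, hBf, hmem⟩ := exists_block_eq_subEl hM hN hinv fun e e' he he' hfe hfe' => by
    by_contra hne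
    apply hfQ.2.2.1
    have h0 := brTrunc_mul hfQ.2.1 (he.1.2.mono (le_top : Q ≤ ⊤)) (he'.1.2.mono (le_top : Q ≤ ⊤))
    rw [he.orthogonal he' hne, map_zero, hkey e he hfe, hkey e' he' hfe', hL.idem] at h0
    exact h0.symm
  have hdef : ∀ P : Sylow p G, IsDefectGroupIdem p ⊤ (topEl M B) (P : Subgroup G) := by
    intro P
    refine ⟨le_top, P.isPGroup', by rw [hBf]; exact brTrunc_ne_zero hM hN θ _, fun R _ hR _ => ?_⟩
    obtain ⟨T, hT⟩ := hR.exists_le_sylow
    obtain ⟨g, hg⟩ := MulAction.exists_smul_eq G T P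
    refine ⟨g, Subgroup.mem_top g, ?_⟩
    rw [← hg]
    exact Subgroup.map_mono hT
  refine ⟨B, hB, hBf, hmem, fun P => (isDefectGroup_topEl_iff hB _).mpr (hdef P), fun D hD => ?_⟩
  obtain ⟨P₀⟩ : Nonempty (Sylow p G) := inferInstance
  obtain ⟨h, -, hh⟩ := (hdef P₀).exists_conj_eq ((isDefectGroup_topEl_iff hB D).mp hD)
  exact ⟨h • P₀, hh.symm⟩

/-- Fong's block over an invariant character of the `p'`-core. -/
theorem exists_block_of_invariant [Fact p.Prime] (hM : IsPModular p M) (hsolv : IsPSolvable p G)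
    (hNdef : N = pPrimeCore p G) {θ : IrrCharacter N} (hinv : IsInvariant θ) :
    ∃ B : Set (IrrCharacter G), IsPBlock M B ∧
      (∀ χ : IrrCharacter G, χ ∈ B ↔ classInner (fun n : N => (χ : G → ℂ) n) (θ : N → ℂ) ≠ 0) ∧
      (∀ P : Sylow p G, IsDefectGroup p M B (P : Subgroup G)) ∧
      ∀ D : Subgroup G, IsDefectGroup p M B D → ∃ P : Sylow p G, D = (P : Subgroup G) := by
  obtain ⟨S⟩ : Nonempty (Sylow p (pPrimePCore p G)) := inferInstance
  obtain ⟨B, h1, -, h3⟩ := exists_block_of_centralizer_le hM hNdef hinv S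
    (Constrained.IsPSolvable.isPConstrained hsolv S)
  exact ⟨B, h1, h3⟩

end CfsgLib.FongBlock
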