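import Cfsg.Agent.FongBlock.Reduction
import Cfsg.Agent.Blocks.HeightZero.RegularPair
import Cfsg.Agent.Chars.Induced.Gallagher
import Cfsg.Agent.Chars.Induced.Extension
import Cfsg.Agent.Chars.Induced.Ito
import Mathlib.GroupTheory.Subgroup.Center

/-!
# Heights in blocks of `p`-solvable groups are bounded by the centre of the defect group

Reduction to the stabilizer of a character of the `p'`-core; for an invariant character the defect
group is a Sylow subgroup and Itô's argument applies in `O_{p',p}`.
-/

set_option autoImplicit false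
set_option linter.unusedSectionVars false
set_option linter.style.haveILetI false
open Cfsg

namespace CfsgLib.FongBlock

open CfsgLib.Blocks

universe u

variable {p : ℕ} [Fact p.Prime] {M : Ideal AlgInt} {G : Type u} [Group G] [Fintype G]

theorem factorization_card_sylow_map (L : Subgroup G) (P : Sylow p L) :
    (Nat.card ((P : Subgroup L).map L.subtype : Subgroup G)).factorization p =
      (Nat.card L).factorization p := by
  rw [Constrained.card_map_of_injective _ L.subtype_injective, P.card_eq_multiplicity,
    Nat.factorization_pow, Finsupp.smul_apply, (Fact.out : p.Prime).factorization_self, smul_eq_mul,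
    mul_one]

/-- The least exponent in a block and the order of a defect group. -/
theorem minExp_add_defect (hM : IsPModular p M) {B : Set (IrrCharacter G)} (hB : IsPBlock M B)
    {P : Subgroup G} (hP : IsDefectGroup p M B P) :
    HeightZero.minExp p B + (Nat.card P).factorization p = (Nat.card G).factorization p := by
  obtain ⟨g, hg, S, rfl⟩ := hP
  rw [HeightZero.minExp_eq_of_defectClass hM hB hg, factorization_card_sylow_map,
    ← Finsupp.add_apply, ← Nat.factorization_mul Subgroup.index_ne_zero_of_finite Nat.card_pos.ne',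
    Subgroup.index_mul_card]

theorem index_center_congr {H K : Type*} [Group H] [Group K] [Finite H] (e : H ≃* K) :
    (Subgroup.center H).index = (Subgroup.center K).index := by
  have h1 := (Subgroup.center H).index_mul_card
  have h2 := (Subgroup.center K).index_mul_card
  rw [← Nat.card_congr (Subgroup.centerCongr e).toEquiv, ← Nat.card_congr e.toEquiv] at h2
  exact Nat.eq_of_mul_eq_mul_right Nat.card_pos (h1.trans h2.symm)

/-- Over an invariant character of the `p'`-core of a `p`-solvable group the degrees are bounded by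
the index of the centre of a Sylow subgroup. -/
theorem factorization_degree_le_of_invariant (hM : IsPModular p M) (hsolv : IsPSolvable p G)
    (P : Sylow p G) (χ : IrrCharacter G) [Fintype (pPrimeCore p G)]
    (θ : IrrCharacter (pPrimeCore p G))
    (hinv : Chars.Induced.inertia (pPrimeCore p G) (θ : pPrimeCore p G → ℂ) = ⊤)
    (hθ : Chars.Induced.mult (fun n : pPrimeCore p G => (χ : G → ℂ) n) θ ≠ 0) :
    (charDegree (χ : G → ℂ)).factorization p ≤
      ((Subgroup.center (P : Subgroup G)).index).factorization p := by
  classical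
  have hp : p.Prime := Fact.out
  have hNd : ¬ p ∣ Nat.card (pPrimeCore p G) := Constrained.pPrimeCore_not_dvd
  set q := QuotientGroup.mk' (pPrimeCore p G) with hq
  set Z := (Subgroup.center (pCore p (G ⧸ pPrimeCore p G))).map
    (pCore p (G ⧸ pPrimeCore p G)).subtype with hZ
  haveI : Z.Normal := ConjAct.normal_of_characteristic_of_normal
  have hZp : IsPGroup p Z :=
    Constrained.isPGroup_pCore.to_le (Subgroup.map_subtype_le _)
  set A := Z.comap q with hA
  haveI : A.Normal := Subgroup.Normal.comap inferInstance _
  haveI := Fintype.ofFinite A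
  have hNA : pPrimeCore p G ≤ A := by
    rw [hA, hq]
    exact (QuotientGroup.ker_mk' _).symm.le.trans (Subgroup.ker_le_comap _ _)
  have hAmap : A.map q = Z :=
    Subgroup.map_comap_eq_self_of_surjective (QuotientGroup.mk'_surjective _) _
  -- the centre of `P` lies in `A`
  have hcle : (Subgroup.center (P : Subgroup G)).map (P : Subgroup G).subtype ≤ A := by
    rintro _ ⟨z, hz, rfl⟩
    have hzc : ∀ x ∈ (P : Subgroup G), x * (z : G) = (z : G) * x := fun x hx =>
      congrArg Subtype.val (Subgroup.mem_center_iff.mp hz ⟨x, hx⟩)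
    obtain ⟨S₀⟩ : Nonempty (Sylow p (pPrimePCore p G)) := inferInstance
    -- `P` contains a Sylow subgroup of the normal subgroup `O_{p',p}`
    obtain ⟨T, hT⟩ := (S₀.isPGroup'.map (pPrimePCore p G).subtype).exists_le_sylow
    obtain ⟨g, hg⟩ := MulAction.exists_smul_eq G T P
    let c : pPrimePCore p G ≃* pPrimePCore p G := MulAut.conjNormal g
    have hQP : ((S₀.comapOfInjective c.symm.toMonoidHom c.symm.injective
        (by rw [MonoidHom.range_eq_top.mpr c.symm.surjective]; exact le_top) :
          Sylow p (pPrimePCore p G)) : Subgroup (pPrimePCore p G)).map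
          (pPrimePCore p G).subtype ≤ (P : Subgroup G) := by
      rintro _ ⟨y, hy, rfl⟩
      rw [← hg]
      refine ⟨((c.symm y : pPrimePCore p G) : G), hT ⟨c.symm y, hy, rfl⟩, ?_⟩
      show g * ((c.symm y : pPrimePCore p G) : G) * g⁻¹ = (y : G)
      rw [show g * ((c.symm y : pPrimePCore p G) : G) * g⁻¹ = ((c (c.symm y) : pPrimePCore p G) : G)
        from rfl, c.apply_symm_apply]
    set S := S₀.comapOfInjective c.symm.toMonoidHom c.symm.injective
      (by rw [MonoidHom.range_eq_top.mpr c.symm.surjective]; exact le_top) with hS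
    have hzK : (z : G) ∈ pPrimePCore p G :=
      Constrained.IsPSolvable.isPConstrained hsolv S
        (Subgroup.mem_centralizer_iff.mpr fun x hx => hzc x (hQP hx))
    have hmap := Constrained.map_sylow_pPrimePCore S
    refine ⟨⟨q z, hzK⟩, ?_, rfl⟩
    rw [SetLike.mem_coe, Subgroup.mem_center_iff]
    rintro ⟨w, hw⟩
    refine Subtype.ext ?_
    rw [← hmap] at hw
    obtain ⟨x, hx, rfl⟩ := hw
    show q x * q z = q z * q x
    rw [← map_mul, ← map_mul, hzc x (hQP hx)]
  -- a constituent on `A` has the degree of `θ`
  obtain ⟨φ, hφ, hφθ⟩ := Chars.Induced.exists_constituent_over (Subgroup.inclusion hNA)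
    (Chars.isCharacter_restrict (Chars.isCharacter_coe χ) A) θ hθ
  haveI := Fintype.ofFinite ((pPrimeCore p G).subgroupOf A)
  let θ' : IrrCharacter ((pPrimeCore p G).subgroupOf A) :=
    Chars.irrEquiv (Subgroup.subgroupOfEquivOfLe hNA).symm θ
  have hinv' : ∀ x : A, Chars.Induced.conjFun ((pPrimeCore p G).subgroupOf A) x
      (θ' : ((pPrimeCore p G).subgroupOf A) → ℂ) = θ' := by
    intro x
    rw [← Chars.Induced.mem_inertia, Chars.Induced.mem_inertia_iff_forall]
    intro n n' hn
    have hx : (x : G) ∈ Chars.Induced.inertia (pPrimeCore p G) (θ : pPrimeCore p G → ℂ) :=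
      hinv ▸ Subgroup.mem_top _
    rw [Chars.irrEquiv_apply, Chars.irrEquiv_apply]
    exact Chars.Induced.mem_inertia_iff_forall.mp hx _ _ (congrArg Subtype.val hn)
  obtain ⟨j, hj⟩ : ∃ j, ((pPrimeCore p G).subgroupOf A).index = p ^ j := by
    obtain ⟨j, hj⟩ := IsPGroup.iff_card.mp hZp
    refine ⟨j, ?_⟩
    show (pPrimeCore p G).relIndex A = _
    rw [Constrained.relIndex_eq_card_map, ← hq, hAmap, hj]
  have hcard' : Nat.card ((pPrimeCore p G).subgroupOf A) = Nat.card (pPrimeCore p G) :=
    Nat.card_congr (Subgroup.subgroupOfEquivOfLe hNA).toEquiv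
  have hdd : ¬ p ∣ charDegree (θ' : ((pPrimeCore p G).subgroupOf A) → ℂ) := fun h =>
    hNd (hcard' ▸ (dvd_trans h (Chars.charDegree_dvd_card θ')))
  obtain ⟨ext, hext, -, -⟩ := Chars.Induced.exists_canonical_extension θ' hinv'
    (Chars.coe_charDegree θ').symm (by
      rw [hj]
      refine Nat.Coprime.pow_left _ ((hp.coprime_iff_not_dvd).mpr fun h => ?_)
      rcases hp.dvd_mul.mp h with h | h
      · exact hNd (hcard' ▸ h.trans (Chars.Induced.detOrder_dvd_card (Chars.isCharacter_coe θ')))
      · exact hdd h)
  have hφθ' : Chars.Induced.mult (fun n : (pPrimeCore p G).subgroupOf A => (φ : A → ℂ) n) θ' ≠ 0 := by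
    simp only [Chars.Induced.mult] at hφθ ⊢
    rw [← Chars.Induced.classInner_comp_equiv (Subgroup.subgroupOfEquivOfLe hNA)] at hφθ
    exact hφθ
  obtain ⟨β, hβ⟩ := Chars.Induced.gallagher_exists ext θ' hext φ hφθ'
  haveI : IsMulCommutative (A ⧸ (pPrimeCore p G).subgroupOf A) := by
    refine ⟨⟨fun a b => ?_⟩⟩
    obtain ⟨a, rfl⟩ := QuotientGroup.mk_surjective a
    obtain ⟨b, rfl⟩ := QuotientGroup.mk_surjective b
    obtain ⟨a', ha', hae⟩ : q (a : G) ∈ Z := a.2
    obtain ⟨b', hb', hbe⟩ : q (b : G) ∈ Z := b.2
    rw [← QuotientGroup.mk_mul, ← QuotientGroup.mk_mul, QuotientGroup.eq, Subgroup.mem_subgroupOf]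
    refine (QuotientGroup.eq_one_iff _).mp ?_
    show q (((a * b)⁻¹ * (b * a) : A) : G) = 1
    simp only [Subgroup.coe_mul, Subgroup.coe_inv, map_mul, map_inv, ← hae, ← hbe]
    have h : (pCore p (G ⧸ pPrimeCore p G)).subtype b' * (pCore p (G ⧸ pPrimeCore p G)).subtype a' =
        (pCore p (G ⧸ pPrimeCore p G)).subtype a' * (pCore p (G ⧸ pPrimeCore p G)).subtype b' := by
      rw [← map_mul, ← map_mul, Subgroup.mem_center_iff.mp ha' b']
    rw [h, inv_mul_cancel]
  have hφ1 : charDegree (φ : A → ℂ) = charDegree (θ' : ((pPrimeCore p G).subgroupOf A) → ℂ) := by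
    apply Nat.cast_injective (R := ℂ)
    rw [Chars.coe_charDegree, Chars.coe_charDegree, congrFun hβ 1]
    show (ext : A → ℂ) 1 * (β : A ⧸ (pPrimeCore p G).subgroupOf A → ℂ) ((1 : A) : A ⧸ (pPrimeCore p G).subgroupOf A) = _
    rw [QuotientGroup.mk_one, Chars.map_one_eq_one_of_isMulCommutative β, mul_one]
    exact hext 1
  have hdvd := Chars.Induced.charDegree_dvd_mul_index χ φ hφ
  have h1 : (charDegree (χ : G → ℂ)).factorization p ≤ A.index.factorization p := by
    have h := (Nat.factorization_le_iff_dvd (Chars.charDegree_pos χ).ne'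
      (mul_ne_zero (Chars.charDegree_pos φ).ne' Subgroup.index_ne_zero_of_finite)).mpr hdvd p
    rwa [Nat.factorization_mul (Chars.charDegree_pos φ).ne' Subgroup.index_ne_zero_of_finite,
      Finsupp.add_apply, hφ1, Nat.factorization_eq_zero_of_not_dvd hdd, zero_add] at h
  refine h1.trans ?_
  have h2 : (Nat.card (Subgroup.center (P : Subgroup G))).factorization p ≤
      (Nat.card A).factorization p := by
    refine (Nat.factorization_le_iff_dvd Nat.card_pos.ne' Nat.card_pos.ne').mpr ?_ p
    rw [← Constrained.card_map_of_injective _ (P : Subgroup G).subtype_injective]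
    exact Subgroup.card_dvd_of_le hcle
  have h3 := congrArg (fun n => n.factorization p) A.index_mul_card
  have h4 := congrArg (fun n => n.factorization p) (Subgroup.center (P : Subgroup G)).index_mul_card
  simp only [Nat.factorization_mul Subgroup.index_ne_zero_of_finite Nat.card_pos.ne',
    Finsupp.add_apply] at h3 h4
  have h5 : (Nat.card (P : Subgroup G)).factorization p = (Nat.card G).factorization p := by
    rw [P.card_eq_multiplicity, Nat.factorization_pow, Finsupp.smul_apply, hp.factorization_self,
      smul_eq_mul, mul_one]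
  omega

/-- Heights in `p`-solvable groups are at most the exponent of the index of the centre of a defect
group. -/
theorem height_le_center_index_of_pSolvable (hM : IsPModular p M) :
    ∀ (n : ℕ) (G : Type u) [Group G] [Fintype G], Nat.card G = n → IsPSolvable p G →
      ∀ B : Set (IrrCharacter G), IsPBlock M B → ∀ P : Subgroup G, IsDefectGroup p M B P →
      ∀ χ : IrrCharacter G, χ ∈ B →
        blockHeight p B (χ : G → ℂ) ≤ ((Subgroup.center P).index).factorization p := by
  intro n
  induction n using Nat.strong_induction_on with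
  | _ n ih =>
  intro G _ _ hn hsolv B hB P hP χ hχ
  classical
  haveI := isMaximal_of_isPModular hM
  set N := pPrimeCore p G with hNdef
  haveI := Fintype.ofFinite N
  have hN : ¬ p ∣ Nat.card N := Constrained.pPrimeCore_not_dvd
  obtain ⟨θ, hθ⟩ := BlocksCover.exists_constituent χ N
  set T := Chars.Induced.inertia N (θ : N → ℂ) with hT
  by_cases htop : T = ⊤
  · have hinv : IsInvariant θ := fun g k =>
      Chars.Induced.mem_inertia_iff_forall.mp (show g ∈ T from htop ▸ Subgroup.mem_top g) k _ rfl
    obtain ⟨B', hB', hmem, -, honly⟩ := exists_block_of_invariant hM hsolv hNdef hinv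
    have hBB : B = B' := by
      rw [eq_blockOf_of_mem hB hχ, eq_blockOf_of_mem hB' ((hmem χ).mpr hθ)]
    obtain ⟨S, rfl⟩ := honly P (hBB ▸ hP)
    exact (Nat.sub_le _ _).trans (factorization_degree_le_of_invariant hM hsolv S χ θ htop
      ((BlocksCover.mult_ne_zero_iff χ θ).mp hθ))
  · haveI := Fintype.ofFinite T
    have hNT : N ≤ T :=
      Chars.Induced.le_inertia (Blocks.isClassFunction_of_isCharacter (isCharacter_of_isIrrCharacter θ.2))
    have hlt : Nat.card T < n := by
      rw [← hn]
      refine lt_of_le_of_ne (Subgroup.card_le_card_group T) fun h => htop ?_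
      exact (Subgroup.card_eq_iff_eq_top T).mp h
    obtain ⟨b, hb, -, honto, hdef⟩ := exists_stab_block hM hN hT hNT hB hχ hθ
    obtain ⟨x, hx, hD⟩ := hdef P hP
    obtain ⟨ψ, hψ, hind⟩ := honto χ hχ
    have h := ih _ hlt T rfl (Constrained.IsPSolvable.subgroup hsolv T) b hb _ hD ψ hψ
    have e : P ≃* (P.map (MulAut.conj x).toMonoidHom).subgroupOf T :=
      (P.equivMapOfInjective _ (MulAut.conj x).injective).trans
        (Subgroup.subgroupOfEquivOfLe hx).symm
    rw [index_center_congr e]
    refine le_trans (le_of_eq ?_) h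
    have hdeg : charDegree (χ : G → ℂ) = T.index * charDegree (ψ : T → ℂ) := by
      apply Nat.cast_injective (R := ℂ)
      rw [Nat.cast_mul, Chars.coe_charDegree, Chars.coe_charDegree, ← hind,
        Chars.Induced.indFun_one_apply]
    have h1 := minExp_add_defect hM hB hP
    have h2 := minExp_add_defect hM hb hD
    rw [← Nat.card_congr e.toEquiv] at h2
    have h3 := congrArg (fun m => m.factorization p) T.index_mul_card
    simp only [Nat.factorization_mul Subgroup.index_ne_zero_of_finite Nat.card_pos.ne',
      Finsupp.add_apply] at h3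
    show (charDegree (χ : G → ℂ)).factorization p - HeightZero.minExp p B =
      (charDegree (ψ : T → ℂ)).factorization p - HeightZero.minExp p b
    rw [hdeg, Nat.factorization_mul Subgroup.index_ne_zero_of_finite (Chars.charDegree_pos ψ).ne',
      Finsupp.add_apply]
    omega

end CfsgLib.FongBlock
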