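import Cfsg.Agent.FongBlock.Basic
import Cfsg.Agent.Blocks.Defect.Induced
import Cfsg.Agent.Blocks.Defect.OrbitBlock
import Cfsg.Agent.GlaubermanZJ.AxB
import Cfsg.Agent.Constrained.Local

/-!
# Blocks of principal type over an invariant character of the `p'`-core
-/

set_option autoImplicit false
set_option linter.unusedSectionVars false
set_option linter.style.haveILetI false
open scoped MonoidAlgebra
open MonoidAlgebra (single)
open Cfsg

namespace CfsgLib.FongBlock

open CfsgLib.Blocks

section induced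

variable {M : Ideal AlgInt} [hM : M.IsMaximal] {G : Type*} [Group G] [Finite G]
  {p : ℕ} [Fact p.Prime] [CharP (kres M) p]

omit hM in
theorem inducedCentralChar_eq_brauer {P H : Subgroup G}
    (hH : H = Subgroup.centralizer (P : Set G)) (ξ : H → ℂ) (g : G) :
    inducedCentralChar H ξ g = brauerCentralChar P H ξ g := by
  have hs : {h : H | IsConj g (h : G)} =
      {h : H | IsConj g (h : G) ∧ (h : G) ∈ Subgroup.centralizer (P : Set G)} :=
    Set.ext fun h => ⟨fun hh => ⟨hh, hH ▸ h.2⟩, fun hh => hh.1⟩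
  simp only [inducedCentralChar, brauerCentralChar, hs]

/-- Induction from the centralizer of a `p`-subgroup is the Brauer map. -/
theorem isInducedBlock_centralizer_iff {P H : Subgroup G} (hP : IsPGroup p P)
    (hH : H = Subgroup.centralizer (P : Set G)) {b : Set (IrrCharacter H)} (hb : IsPBlock M b)
    {B : Set (IrrCharacter G)} (hB : IsPBlock M B) :
    IsInducedBlock M H b B ↔ BrOver P (subEl M H b) (topEl M B) := by
  classical
  haveI := Fintype.ofFinite G
  have hCH : Subgroup.centralizer (P : Set G) ≤ H := le_of_eq hH.symm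
  have hHN : H ≤ Subgroup.normalizer (P : Set G) := hH ▸ Subgroup.centralizer_le_normalizer _
  rw [IsInducedBlock, and_iff_right hb, and_iff_right hB]
  simp only [inducedCentralChar_eq_brauer hH]
  set e := topEl M B with he'
  set f := subEl M H b with hf'
  have he : IsBlockIdem ⊤ e := isBlockIdem_topEl hB
  have hf : IsBlockIdem H f := isBlockIdem_subEl hb
  have S : BrSetting p ⊤ P H := ⟨hP, le_top, inf_le_right.trans hCH, le_top, hHN⟩
  have hbr : ∀ (z : MonoidAlgebra (kres M) G) (c : kres M),
      brTrunc P (z - c • 1) = brTrunc P z - c • 1 := fun z c => by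
    rw [map_sub, map_smul, brTrunc_one]
  obtain ⟨ξ, hξ⟩ := nonempty_of_isPBlock hb
  obtain ⟨χ, hχ⟩ := nonempty_of_isPBlock hB
  constructor
  · intro h
    have key : ∀ z ∈ Submodule.span (kres M)
        {a | ∃ x ∈ (⊤ : Subgroup G), e.coeff x ≠ 0 ∧ a = classSumIn (kres M) ⊤ x},
        z ∈ centerIn (kres M) ⊤ ∧
          ∃ c : kres M, ¬ Sees e (z - c • 1) ∧ ¬ Sees f (brTrunc P z - c • 1) := by
      intro z hz
      induction hz using Submodule.span_induction with
      | mem z hz =>
        obtain ⟨g, hg, -, rfl⟩ := hz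
        refine ⟨classSumIn_mem_centerIn hg, _, (not_sees_classSum_sub_iff hB hχ g _).mpr rfl, ?_⟩
        have h2 := not_sees_brTrunc_classSum_sub_iff (M := M) hCH hHN hb hξ g
          (redC M (centralChar (χ : G → ℂ) g))
        refine h2.2.mpr ?_
        rw [redC_eq_redC_iff h2.1 (memLocalRing_centralChar χ g)]
        exact h ξ hξ χ hχ g
      | zero =>
        refine ⟨zero_mem _, 0, ?_, ?_⟩
        · rw [zero_smul, sub_zero]; exact not_sees_zero
        · rw [map_zero, zero_smul, sub_zero]; exact not_sees_zero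
      | add z z' _ _ hz hz' =>
        obtain ⟨hzc, c, h1, h2⟩ := hz
        obtain ⟨hzc', c', h1', h2'⟩ := hz'
        have hs : ∀ (H : Subgroup G) (z : MonoidAlgebra (kres M) G),
            z ∈ centerIn (kres M) H → ∀ c : kres M, z - c • 1 ∈ centerIn (kres M) H :=
          fun H z hz c => sub_mem hz (Subalgebra.smul_mem _ (one_mem _) c)
        refine ⟨add_mem hzc hzc', c + c', ?_, ?_⟩
        · rw [add_smul, add_sub_add_comm]
          exact he.not_sees_add (hs _ _ hzc c) (hs _ _ hzc' c') h1 h1'
        · rw [map_add, add_smul, add_sub_add_comm]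
          exact hf.not_sees_add (hs _ _ (S.trunc_mem hzc) c) (hs _ _ (S.trunc_mem hzc') c') h2 h2'
      | smul r z _ hz =>
        obtain ⟨hzc, c, h1, h2⟩ := hz
        refine ⟨Subalgebra.smul_mem _ hzc r, r * c, ?_, ?_⟩
        · rw [mul_smul, ← smul_sub]
          exact not_sees_smul r h1
        · rw [map_smul, mul_smul, ← smul_sub]
          exact not_sees_smul r h2
    obtain ⟨-, c, h1, h2⟩ := key e (mem_span_classSumIn he.1)
    have hc : c = 1 := by
      by_contra hne
      apply h1
      intro hn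
      have h3 : (e - c • 1) * e = (1 - c) • e := by
        rw [sub_mul, he.idem, smul_mul_assoc, one_mul, sub_smul, one_smul]
      rw [h3] at hn
      have h4 := hn.smul (1 - c)⁻¹
      rw [inv_smul_smul₀ (sub_ne_zero.mpr (Ne.symm hne))] at h4
      exact he.ne_zero (idempotent_eq_zero_of_isNilpotent he.idem h4)
    subst hc
    rw [one_smul] at h2
    have ht : brTrunc P e ∈ centerIn (kres M) H := S.trunc_mem he.1
    rcases hf.2.2.2 _ ht (S.trunc_idem he.1 he.idem) with h0 | h1
    · exfalso
      apply h2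
      intro hn
      rw [sub_mul, h0, one_mul, zero_sub, isNilpotent_neg_iff] at hn
      exact hf.ne_zero (idempotent_eq_zero_of_isNilpotent hf.idem hn)
    · exact h1
  · intro ho ξ' hξ' χ' hχ' g
    have h1 := (not_sees_classSum_sub_iff hB hχ' g _).mpr rfl
    rw [← S.sees_iff hf he ho (sub_mem (classSumIn_mem_centerIn (Subgroup.mem_top g))
      (Subalgebra.smul_mem _ (one_mem _) _)), hbr] at h1
    have h2 := not_sees_brTrunc_classSum_sub_iff (M := M) hCH hHN hb hξ' g
      (redC M (centralChar (χ' : G → ℂ) g))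
    rw [← redC_eq_redC_iff h2.1 (memLocalRing_centralChar χ' g)]
    exact h2.2.mp h1

end induced

section idem

variable {k : Type*} [Field k] {G : Type*} [Group G] {C : Subgroup G}

/-- Truncation inside a subgroup. -/
theorem emb_brTrunc (Q : Subgroup C) (a : k[C]) :
    emb k C.subtype (brTrunc Q a) = brTrunc (Q.map C.subtype) (emb k C.subtype a) := by
  refine MonoidAlgebra.ext (Finsupp.ext fun g => ?_)
  by_cases hg : g ∈ C
  · obtain ⟨x, rfl⟩ : ∃ x : C, C.subtype x = g := ⟨⟨g, hg⟩, rfl⟩
    have hiff : C.subtype x ∈ Subgroup.centralizer ((Q.map C.subtype : Subgroup G) : Set G) ↔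
        x ∈ Subgroup.centralizer (Q : Set C) := by
      simp [Subgroup.mem_centralizer_iff, Subtype.ext_iff]
    rw [coeff_emb_apply C.subtype_injective]
    by_cases hx : x ∈ Subgroup.centralizer (Q : Set C)
    · rw [coeff_brTrunc_of_mem _ hx, coeff_brTrunc_of_mem _ (hiff.mpr hx),
        coeff_emb_apply C.subtype_injective]
    · rw [coeff_brTrunc_of_not_mem _ hx, coeff_brTrunc_of_not_mem _ (mt hiff.mp hx)]
  · have hg' : g ∉ C.subtype.range := by rwa [Subgroup.range_subtype]
    rw [coeff_emb_of_not_mem _ hg']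
    by_cases hc : g ∈ Subgroup.centralizer ((Q.map C.subtype : Subgroup G) : Set G)
    · rw [coeff_brTrunc_of_mem _ hc, coeff_emb_of_not_mem _ hg']
    · rw [coeff_brTrunc_of_not_mem _ hc]

/-- The centre of a subgroup of a subgroup. -/
theorem emb_mem_centerIn_map_iff (H : Subgroup C) (a : k[C]) :
    emb k C.subtype a ∈ centerIn k (H.map C.subtype) ↔ a ∈ centerIn k H := by
  rw [mem_centerIn, mem_centerIn]
  have hc : ∀ x : C, (emb k C.subtype a).coeff (x : G) = a.coeff x := fun x =>
    coeff_emb_apply C.subtype_injective a x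
  constructor
  · rintro ⟨hs, hf⟩
    refine ⟨fun x hx => ?_, fun s hs' x => ?_⟩
    · rw [← hc]
      exact hs _ fun h => by
        obtain ⟨y, hy, hyx⟩ := h
        exact hx (Subtype.ext hyx ▸ hy)
    · rw [← hc, ← hc]
      exact hf (s : G) ⟨s, hs', rfl⟩ x
  · rintro ⟨hs, hf⟩
    refine ⟨fun g hg => ?_, ?_⟩
    · by_cases hgC : g ∈ C
      · rw [hc ⟨g, hgC⟩]
        exact hs _ fun h => hg ⟨_, h, rfl⟩
      · exact coeff_emb_of_not_mem _ (by rwa [Subgroup.range_subtype])
    · rintro _ ⟨s, hs', rfl⟩ g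
      by_cases hgC : g ∈ C
      · exact (hc (s * ⟨g, hgC⟩ * s⁻¹)).trans ((hf s hs' ⟨g, hgC⟩).trans (hc ⟨g, hgC⟩).symm)
      · have h' : C.subtype s * g * (C.subtype s)⁻¹ ∉ C := fun h => hgC (by
          have := C.mul_mem (C.mul_mem (C.inv_mem s.2) h) s.2
          simpa [mul_assoc] using this)
        rw [coeff_emb_of_not_mem _ (by rwa [Subgroup.range_subtype]),
          coeff_emb_of_not_mem _ (by rwa [Subgroup.range_subtype])]

/-- A block idempotent of a subgroup of a subgroup. -/
theorem isBlockIdem_of_emb {H : Subgroup C} {a : k[C]}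
    (h : IsBlockIdem (H.map C.subtype) (emb k C.subtype a)) : IsBlockIdem H a := by
  have hinj := emb_injective (k := k) C.subtype_injective
  refine ⟨(emb_mem_centerIn_map_iff H a).mp h.1, hinj (by rw [map_mul]; exact h.idem),
    fun h0 => h.ne_zero (by rw [h0, map_zero]), fun i hi hii => ?_⟩
  rcases h.2.2.2 _ ((emb_mem_centerIn_map_iff H i).mpr hi) (hii.map (emb k C.subtype)) with h' | h'
  · exact Or.inl (hinj (by rw [map_mul, map_zero]; exact h'))
  · exact Or.inr (hinj (by rw [map_mul]; exact h'))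

theorem brTrunc_brTrunc_eq_sup (R D : Subgroup G) (a : k[G]) :
    brTrunc D (brTrunc R a) = brTrunc (R ⊔ D) a := by
  have hiff : ∀ g, g ∈ Subgroup.centralizer ((R ⊔ D : Subgroup G) : Set G) ↔
      g ∈ Subgroup.centralizer (R : Set G) ∧ g ∈ Subgroup.centralizer (D : Set G) := fun g => by
    simp only [← Subgroup.zpowers_le, Subgroup.le_centralizer_iff (H := Subgroup.zpowers g), sup_le_iff]
  refine MonoidAlgebra.ext (Finsupp.ext fun g => ?_)
  by_cases hD : g ∈ Subgroup.centralizer (D : Set G)
  · rw [coeff_brTrunc_of_mem _ hD]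
    by_cases hR : g ∈ Subgroup.centralizer (R : Set G)
    · rw [coeff_brTrunc_of_mem _ hR, coeff_brTrunc_of_mem _ ((hiff g).mpr ⟨hR, hD⟩)]
    · rw [coeff_brTrunc_of_not_mem _ hR, coeff_brTrunc_of_not_mem _ fun h => hR ((hiff g).mp h).1]
  · rw [coeff_brTrunc_of_not_mem _ hD, coeff_brTrunc_of_not_mem _ fun h => hD ((hiff g).mp h).2]

end idem

variable {p : ℕ} [Fact p.Prime] {M : Ideal AlgInt} [hMmax : M.IsMaximal] {G : Type*} [Group G]
  [Fintype G] {N : Subgroup G} [hNn : N.Normal]

/-- The truncation of the idempotent of an invariant character at a `p`-subgroup is a block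
idempotent of the centralizer in the `p'`-subgroup. -/
theorem isBlockIdem_brTrunc_inf (hM : IsPModular p M) (hN : ¬ p ∣ Nat.card N) {θ : IrrCharacter N}
    (hinv : IsInvariant θ) {S : Subgroup G} (hS : IsPGroup p S) :
    IsBlockIdem (N ⊓ Subgroup.centralizer (S : Set G))
      (brTrunc S (subEl M N ({θ} : Set (IrrCharacter N)))) := by
  classical
  haveI := charP_kres hM
  haveI := Fintype.ofFinite N
  set f := subEl M N ({θ} : Set (IrrCharacter N)) with hfdef
  have hfC : f ∈ centerIn (kres M) ⊤ := subEl_mem_centerIn hinv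
  have hmapT : (N ⊔ S).map (QuotientGroup.mk' N) = S.map (QuotientGroup.mk' N) := by
    rw [Subgroup.map_sup, QuotientGroup.map_mk'_self, bot_sup_eq]
  have hidx : N.relIndex (N ⊔ S) = Nat.card (S.map (QuotientGroup.mk' N)) := by
    rw [Constrained.relIndex_eq_card_map, hmapT]
  obtain ⟨k, hk⟩ := IsPGroup.iff_card.mp (hS.map (QuotientGroup.mk' N))
  have hT : IsBlockIdem (N ⊔ S) f :=
    isBlockIdem_subgroup hM hN hinv le_sup_left (hidx.trans hk)
  -- `S` is a Sylow subgroup of `N S`
  obtain ⟨S', hS'⟩ := (hS.of_equiv (Subgroup.subgroupOfEquivOfLe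
    (le_sup_right : S ≤ N ⊔ S)).symm).exists_le_sylow
  set D' := (S' : Subgroup (N ⊔ S : Subgroup G)).map (N ⊔ S).subtype with hD'
  have hsyl : IsSylowIn p D' (N ⊔ S) := isSylowIn_map_sylow S'
  have hSD : S ≤ D' := by
    exact (Subgroup.map_subgroupOf_eq_of_le (le_sup_right : S ≤ N ⊔ S)).ge.trans
      (Subgroup.map_mono hS')
  have hbot : N ⊓ D' = ⊥ := by
    rw [inf_comm]
    exact Constrained.disjoint_of_isPGroup_of_not_dvd hsyl.2.1 hN
  have hcard : Nat.card D' ≤ Nat.card S := by
    have h1 : Nat.card D' = Nat.card (D'.map (QuotientGroup.mk' N)) := by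
      rw [← Constrained.relIndex_eq_card_map, ← Subgroup.inf_relIndex_right, hbot,
        Subgroup.relIndex_bot_left]
    rw [h1]
    refine (Subgroup.card_le_of_le (Subgroup.map_mono hsyl.1)).trans ?_
    rw [hmapT]
    exact Nat.le_of_dvd Nat.card_pos (Constrained.card_map_dvd_card _ S)
  have heq : S = D' := Subgroup.eq_of_le_of_card_ge hSD hcard
  have hfS : IsDefectGroupIdem p (N ⊔ S) f S :=
    ⟨le_sup_right, hS, brTrunc_ne_zero hM hN θ S,
      fun R hR hRp _ => heq ▸ hsyl.2.2 R hR hRp⟩
  have hb := hfS.trunc_isBlockIdem hT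
  refine ⟨⟨isSupportedOn_brTrunc_of (isSupportedOn_subEl N _),
    (hfC.2.mono le_top).brTrunc (inf_le_right.trans (Subgroup.centralizer_le_normalizer _))⟩,
    hb.2.1, hb.ne_zero, fun i hi hii => ?_⟩
  have hiS : IsFixedBy i S :=
    isFixedBy_of_supported_centralizer (isSupportedOn_mono hi.1 inf_le_right)
  refine hb.2.2.2 i ⟨isSupportedOn_mono hi.1 (le_inf (inf_le_left.trans le_sup_left)
    (inf_le_right.trans (Subgroup.centralizer_le_normalizer _))), (hi.2.sup hiS).mono ?_⟩ hii
  rintro t ⟨ht, htn⟩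
  obtain ⟨n, hn, s, hs, rfl⟩ := Subgroup.mem_sup_of_normal_left.mp ht
  have hnS : n ∈ Subgroup.normalizer (S : Set G) := by
    have hts : n * s ∈ Subgroup.normalizer (S : Set G) := htn
    have := Subgroup.mul_mem _ hts
      (Subgroup.inv_mem _ (Subgroup.le_normalizer hs : s ∈ Subgroup.normalizer (S : Set G)))
    rwa [mul_inv_cancel_right] at this
  have hnC : n ∈ Subgroup.centralizer (S : Set G) := by
    rw [Subgroup.mem_centralizer_iff]
    intro q hq
    have h1 : n * q * n⁻¹ * q⁻¹ ∈ S ⊓ N := by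
      refine ⟨S.mul_mem ((Subgroup.mem_normalizer_iff.mp hnS q).mp hq) (S.inv_mem hq), ?_⟩
      have := N.mul_mem hn (hNn.conj_mem _ (N.inv_mem hn) q)
      simpa [mul_assoc] using this
    rw [Constrained.disjoint_of_isPGroup_of_not_dvd hS hN, Subgroup.mem_bot, mul_inv_eq_one,
      mul_inv_eq_iff_eq_mul] at h1
    exact h1.symm
  exact mul_mem (Subgroup.mem_sup_left ⟨hn, hnC⟩) (Subgroup.mem_sup_right hs)

omit hMmax in
/-- `p`-regular elements of `O_{p',p}` lie in `O_{p'}`. -/
theorem mem_pPrimeCore_of_regular {g : G} (hg : g ∈ pPrimePCore p G) (hord : ¬ p ∣ orderOf g) :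
    g ∈ pPrimeCore p G := by
  have hcop : (orderOf (QuotientGroup.mk' (pPrimeCore p G) g)).Coprime p :=
    ((Fact.out : p.Prime).coprime_iff_not_dvd.mpr hord).symm.coprime_dvd_left
      (orderOf_map_dvd _ g)
  have h1 := LocalP.coprime_orderOf_of_mem Constrained.isPGroup_pCore
    (show QuotientGroup.mk' (pPrimeCore p G) g ∈ pCore p (G ⧸ pPrimeCore p G) from hg) hcop
  exact (QuotientGroup.eq_one_iff g).mp (orderOf_eq_one_iff.mp ((Nat.coprime_self _).mp h1))

omit hMmax in
/-- `p`-regular elements centralizing `R` and a Sylow subgroup of `C(R) ∩ O_{p',p}` lie in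
`O_{p'}`, when the centralizer of `O_{p',p}/O_{p'}` is small. -/
theorem mem_pPrimeCore_of_centralizes
    (hc : Subgroup.centralizer (pCore p (G ⧸ pPrimeCore p G) : Set (G ⧸ pPrimeCore p G)) ≤
      pCore p (G ⧸ pPrimeCore p G))
    {R : Subgroup G} (hR : IsPGroup p R)
    (P : Sylow p (Subgroup.centralizer (R : Set G) ⊓ pPrimePCore p G : Subgroup G)) {g : G}
    (hgR : g ∈ Subgroup.centralizer (R : Set G))
    (hgP : g ∈ Subgroup.centralizer (((P : Subgroup _).map
      (Subgroup.centralizer (R : Set G) ⊓ pPrimePCore p G : Subgroup G).subtype : Subgroup G) : Set G))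
    (hord : ¬ p ∣ orderOf g) : g ∈ pPrimeCore p G := by
  set q := QuotientGroup.mk' (pPrimeCore p G) with hq
  have hcop : (orderOf (q g)).Coprime p :=
    ((Fact.out : p.Prime).coprime_iff_not_dvd.mpr hord).symm.coprime_dvd_left
      (orderOf_map_dvd _ g)
  -- the image of `(Subgroup.centralizer (R : Set G) ⊓ pPrimePCore p G : Subgroup G)` is a `p`-group, so that of its Sylow subgroup
  have hEp : IsPGroup p ((Subgroup.centralizer (R : Set G) ⊓ pPrimePCore p G : Subgroup G).map q) := by
    refine Constrained.isPGroup_pCore.to_le ?_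
    rw [hq, ← Constrained.map_pPrimePCore]
    exact Subgroup.map_mono inf_le_right
  let π : (Subgroup.centralizer (R : Set G) ⊓ pPrimePCore p G : Subgroup G) →* (Subgroup.centralizer (R : Set G) ⊓ pPrimePCore p G : Subgroup G).map q := q.subgroupMap (Subgroup.centralizer (R : Set G) ⊓ pPrimePCore p G : Subgroup G)
  have hπ : Function.Surjective π := q.subgroupMap_surjective (Subgroup.centralizer (R : Set G) ⊓ pPrimePCore p G : Subgroup G)
  have hPtop : (P : Subgroup (Subgroup.centralizer (R : Set G) ⊓ pPrimePCore p G : Subgroup G)).map π = ⊤ := by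
    have h1 : (P.mapSurjective hπ : Subgroup ((Subgroup.centralizer (R : Set G) ⊓ pPrimePCore p G : Subgroup G).map q)) = (P : Subgroup (Subgroup.centralizer (R : Set G) ⊓ pPrimePCore p G : Subgroup G)).map π :=
      Sylow.coe_mapSurjective hπ P
    rw [← h1]
    exact ((P.mapSurjective hπ).is_maximal' (Q := ⊤)
      (hEp.of_equiv Subgroup.topEquiv.symm) le_top).symm
  refine (QuotientGroup.eq_one_iff g).mp ?_
  refine LocalP.eq_one_of_centralizes_pCore hc hcop ?_
  refine GlaubermanZJ.thompson_axb_elem Constrained.isPGroup_pCore (hR.map q)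
    Subgroup.le_normalizer_of_normal (Subgroup.le_normalizer_of_normal (Subgroup.mem_top (q g)))
    ?_ hcop ?_
  · rintro _ ⟨b, hb, rfl⟩
    show q g * q b = q b * q g
    rw [← map_mul, ← map_mul, Subgroup.mem_centralizer_iff.mp hgR b hb]
  · intro y hy hyR
    have hyC : y ∈ (Subgroup.centralizer (R : Set G)).map q := by
      rw [hq, Constrained.map_centralizer_eq _ Constrained.pPrimeCore_not_dvd R hR,
        Subgroup.mem_centralizer_iff]
      exact hyR
    obtain ⟨c, hc', rfl⟩ := hyC
    have hcE : c ∈ (Subgroup.centralizer (R : Set G) ⊓ pPrimePCore p G : Subgroup G) := ⟨hc', hy⟩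
    have hmem : π ⟨c, hcE⟩ ∈ (P : Subgroup (Subgroup.centralizer (R : Set G) ⊓ pPrimePCore p G : Subgroup G)).map π := hPtop ▸ Subgroup.mem_top _
    obtain ⟨x, hx, hxe⟩ := hmem
    have hxc : q (x : G) = q c := congrArg Subtype.val hxe
    show q g * q c = q c * q g
    rw [← hxc, ← map_mul, ← map_mul,
      Subgroup.mem_centralizer_iff.mp hgP (x : G) ⟨x, hx, rfl⟩]

/-- In a group with small centralizer of `O_{p',p}/O_{p'}` the Brauer maps send the idempotent of an
invariant character of the `p'`-core to block idempotents of centralizers. -/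
theorem isBlockIdem_brTrunc_centralizer (hM : IsPModular p M) (hNdef : N = pPrimeCore p G)
    (hc : Subgroup.centralizer (pCore p (G ⧸ pPrimeCore p G) : Set (G ⧸ pPrimeCore p G)) ≤
      pCore p (G ⧸ pPrimeCore p G))
    {θ : IrrCharacter N} (hinv : IsInvariant θ) {R : Subgroup G} (hR : IsPGroup p R) :
    IsBlockIdem (Subgroup.centralizer (R : Set G))
      (brTrunc R (subEl M N ({θ} : Set (IrrCharacter N)))) := by
  classical
  haveI := charP_kres hM
  have hN : ¬ p ∣ Nat.card N := by rw [hNdef]; exact Constrained.pPrimeCore_not_dvd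
  have hNK : N ≤ pPrimePCore p G := by rw [hNdef]; exact Constrained.pPrimeCore_le_pPrimePCore
  set f := subEl M N ({θ} : Set (IrrCharacter N)) with hfdef
  have hfC : f ∈ centerIn (kres M) ⊤ := subEl_mem_centerIn hinv
  have hf : f * f = f := by
    haveI := Fintype.ofFinite N
    exact (isBlockIdem_subEl (isPBlock_singleton hM hN θ)).idem
  set C := Subgroup.centralizer (R : Set G) with hC
  set K := pPrimePCore p G with hK
  set F := brTrunc R f with hF
  have hCN : C ≤ Subgroup.normalizer (R : Set G) := Subgroup.centralizer_le_normalizer _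
  have hFC : F ∈ centerIn (kres M) C :=
    ⟨isSupportedOn_brTrunc R f, (hfC.2.mono le_top).brTrunc hCN⟩
  have hFF : F * F = F := by
    rw [hF, ← brTrunc_mul hR (hfC.2.mono le_top) (hfC.2.mono le_top), hf]
  have hFE : IsBlockIdem (C ⊓ K) F := by
    refine ⟨⟨isSupportedOn_mono (isSupportedOn_brTrunc_of (isSupportedOn_subEl N _))
        (le_inf inf_le_right (inf_le_left.trans hNK)), hFC.2.mono inf_le_left⟩, hFF,
      brTrunc_ne_zero hM hN θ R, fun i hi hii => ?_⟩
    refine (isBlockIdem_brTrunc_inf hM hN hinv hR).2.2.2 i ⟨fun g hg => ?_, hi.2.mono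
      (le_inf inf_le_right (inf_le_left.trans hNK))⟩ hii
    by_contra hne
    have hgE : g ∈ C ⊓ K := by_contra fun h => hne (hi.1 g h)
    refine hg ⟨?_, hgE.1⟩
    rw [hNdef]
    exact mem_pPrimeCore_of_regular hgE.2 fun hd => hne (coeff_eq_zero_of_singular hM hi hii hd)
  obtain ⟨P⟩ : Nonempty (Sylow p (C ⊓ K : Subgroup G)) := inferInstance
  set D := (P : Subgroup (C ⊓ K : Subgroup G)).map (C ⊓ K).subtype with hD
  have hDp : IsPGroup p D := P.isPGroup'.map _
  have hDE : D ≤ C ⊓ K := Subgroup.map_subtype_le _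
  have hDC : D ≤ C := hDE.trans inf_le_left
  have hRD : IsPGroup p (R ⊔ D : Subgroup G) :=
    hR.to_sup_of_normal_left' hDp (hDC.trans hCN)
  have hFD : IsBlockIdem (N ⊓ Subgroup.centralizer ((R ⊔ D : Subgroup G) : Set G))
      (brTrunc D F) := by
    rw [hF, brTrunc_brTrunc_eq_sup]
    exact isBlockIdem_brTrunc_inf hM hN hinv hRD
  -- every part of `F` truncates to all of it
  have hkey : ∀ j ∈ centerIn (kres M) C, j * j = j → j ≠ 0 → j * F = j →
      brTrunc D j = brTrunc D F := by
    intro j hj hjj hj0 hjF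
    have hne : brTrunc D j ≠ 0 := by
      haveI := Fintype.ofFinite C
      obtain ⟨j', rfl⟩ := exists_emb_eq (k := kres M) C.subtype_injective
        (a := j) (by rw [Subgroup.range_subtype]; exact hj.1)
      obtain ⟨F', hF'⟩ := exists_emb_eq (k := kres M) C.subtype_injective
        (a := F) (by rw [Subgroup.range_subtype]; exact hFC.1)
      have hinj := emb_injective (k := kres M) C.subtype_injective
      have hmapE : ((C ⊓ K).subgroupOf C).map C.subtype = C ⊓ K :=
        Subgroup.map_subgroupOf_eq_of_le inf_le_left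
      have hmapD : (D.subgroupOf C).map C.subtype = D := Subgroup.map_subgroupOf_eq_of_le hDC
      haveI : ((C ⊓ K).subgroupOf C).Normal := by
        rw [inf_comm, Subgroup.inf_subgroupOf_right]
        infer_instance
      have hblk : IsBlockIdem ((C ⊓ K).subgroupOf C) F' :=
        isBlockIdem_of_emb (by rw [hmapE, hF']; exact hFE)
      have h1 : brTrunc (D.subgroupOf C) F' ≠ 0 := fun h => hFD.ne_zero (by
        rw [← hF', ← hmapD, ← emb_brTrunc, h, map_zero])
      have h2 := brTrunc_ne_zero_of_covers hblk (hDp.comap_of_injective C.subtype C.subtype_injective :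
          IsPGroup p (D.subgroupOf C)) (Subgroup.subgroupOf_mono _ hDE) h1
        (show j' ∈ centerIn (kres M) ⊤ from (emb_mem_centerIn_map_iff ⊤ j').mp (by
          rw [← MonoidHom.range_eq_map, Subgroup.range_subtype]; exact hj))
        (hinj (by rw [map_mul]; exact hjj))
        (fun h => hj0 (by rw [← hjF, ← hF', ← map_mul, h, map_zero]))
      intro h0
      apply h2
      refine hinj ?_
      rw [emb_brTrunc, map_zero]
      exact (congrArg (fun Q => brTrunc Q _) hmapD).trans h0
    have hmem : brTrunc D j ∈ centerIn (kres M)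
        (N ⊓ Subgroup.centralizer ((R ⊔ D : Subgroup G) : Set G)) := by
      refine ⟨fun g hg => ?_, ((hj.2.mono inf_le_left).brTrunc (S := C ⊓ Subgroup.normalizer (D : Set G))
        inf_le_right |>.mono (le_inf (inf_le_right.trans (Subgroup.centralizer_le (show (R : Set G) ⊆ ((R ⊔ D : Subgroup G) : Set G) from fun x hx => Subgroup.mem_sup_left hx)))
          (inf_le_right.trans ((Subgroup.centralizer_le (show (D : Set G) ⊆ ((R ⊔ D : Subgroup G) : Set G) from fun x hx => Subgroup.mem_sup_right hx)).trans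
            (Subgroup.centralizer_le_normalizer _)))))⟩
      by_contra hne'
      have hgD : g ∈ Subgroup.centralizer (D : Set G) :=
        by_contra fun h => hne' (coeff_brTrunc_of_not_mem _ h)
      rw [coeff_brTrunc_of_mem _ hgD] at hne'
      have hgC : g ∈ C := by_contra fun h => hne' (hj.1 g h)
      refine hg ⟨?_, ?_⟩
      · rw [hNdef]
        exact mem_pPrimeCore_of_centralizes hc hR P hgC hgD
          fun hd => hne' (coeff_eq_zero_of_singular hM hj hjj hd)
      · show g ∈ Subgroup.centralizer ((R ⊔ D : Subgroup G) : Set G)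
        rw [← Subgroup.zpowers_le,
          Subgroup.le_centralizer_iff (H := Subgroup.zpowers g), sup_le_iff,
          ← Subgroup.le_centralizer_iff (H := Subgroup.zpowers g), Subgroup.zpowers_le,
          ← Subgroup.le_centralizer_iff (H := Subgroup.zpowers g), Subgroup.zpowers_le]
        exact ⟨hgC, hgD⟩
    have hidem : brTrunc D j * brTrunc D j = brTrunc D j := by
      rw [← brTrunc_mul hDp (hj.2.mono hDC) (hj.2.mono hDC), hjj]
    have hmul : brTrunc D j * brTrunc D F = brTrunc D j := by
      rw [← brTrunc_mul hDp (hj.2.mono hDC) (hFC.2.mono hDC), hjF]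
    rcases hFD.2.2.2 _ hmem hidem with h | h
    · exact absurd (hmul.symm.trans h) hne
    · exact hmul.symm.trans h
  refine ⟨hFC, hFF, brTrunc_ne_zero hM hN θ R, fun i hi hii => ?_⟩
  by_contra hcon
  rw [not_or] at hcon
  have hc' : Commute i F := commute_centerIn hi hFC
  set j := i * F with hj
  have hjj : j * j = j := by
    rw [hj, mul_assoc, ← mul_assoc F, ← hc'.eq, mul_assoc i F F, hFF, ← mul_assoc, hii.eq]
  have hjF : j * F = j := by rw [hj, mul_assoc, hFF]
  have hFj : F * j = j := by rw [(commute_centerIn hFC (mul_mem hi hFC)).eq, hjF]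
  have h1 := hkey j (mul_mem hi hFC) hjj hcon.1 hjF
  have h2 := hkey (F - j) (sub_mem hFC (mul_mem hi hFC))
    (by rw [mul_sub, sub_mul, sub_mul, hFF, hjF, hFj, hjj, sub_self, sub_zero])
    (sub_ne_zero.mpr (Ne.symm hcon.2)) (by rw [sub_mul, hFF, hjF])
  rw [map_sub, h1, sub_self] at h2
  exact hFD.ne_zero h2.symm

/-- The block over an invariant character of the `p'`-core is of principal type. -/
theorem exists_block_principal_type (hM : IsPModular p M) [Fintype N]
    (hNdef : N = pPrimeCore p G) {θ : IrrCharacter N} (hinv : IsInvariant θ)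
    (S : Sylow p (pPrimePCore p G))
    (hCK : Subgroup.centralizer (((S : Subgroup (pPrimePCore p G)).map (pPrimePCore p G).subtype :
      Subgroup G) : Set G) ≤ pPrimePCore p G) :
    ∃ B : Set (IrrCharacter G), IsPBlock M B ∧
      (∀ χ : IrrCharacter G, χ ∈ B ↔ classInner (fun n : N => (χ : G → ℂ) n) (θ : N → ℂ) ≠ 0) ∧
      (∀ P : Sylow p G, IsDefectGroup p M B (P : Subgroup G)) ∧
      ∀ R : Subgroup G, IsPGroup p R →
        ∃! b : Set (IrrCharacter (Subgroup.centralizer (R : Set G))),
          IsInducedBlock M (Subgroup.centralizer (R : Set G)) b B := by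
  haveI := charP_kres hM
  obtain ⟨B, hB, hBf, hmem, hdef, -⟩ := exists_block_of_centralizer_le hM hNdef hinv S hCK
  have hc : Subgroup.centralizer (pCore p (G ⧸ pPrimeCore p G) : Set (G ⧸ pPrimeCore p G)) ≤
      pCore p (G ⧸ pPrimeCore p G) := by
    conv_lhs => rw [← Constrained.map_sylow_pPrimePCore S]
    rw [← Constrained.map_centralizer_eq _ Constrained.pPrimeCore_not_dvd _ (S.isPGroup'.map _),
      ← Constrained.map_pPrimePCore]
    exact Subgroup.map_mono hCK
  refine ⟨B, hB, hmem, hdef, fun R hR => ?_⟩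
  have hblk := isBlockIdem_brTrunc_centralizer hM hNdef hc hinv hR
  obtain ⟨b, hb, hbe⟩ := exists_subEl_eq hblk
  refine ⟨b, (isInducedBlock_centralizer_iff hR rfl hb hB).mpr ?_, fun b' hb' => ?_⟩
  · rw [BrOver, hBf, hbe, hblk.idem]
  · have hov := (isInducedBlock_centralizer_iff hR rfl hb'.1 hB).mp hb'
    rw [BrOver, hBf] at hov
    refine subEl_injective hb'.1 hb (IsBlockIdem.eq_of_mul_ne_zero (isBlockIdem_subEl hb'.1)
      (isBlockIdem_subEl hb) ?_)
    rw [hbe, (commute_centerIn (isBlockIdem_subEl hb'.1).1 hblk.1).eq, hov]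
    exact (isBlockIdem_subEl hb'.1).ne_zero

end CfsgLib.FongBlock
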