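import Cfsg.Agent.FongBlock.Basic
import Cfsg.Agent.Blocks.Defect.Induced
import Cfsg.Agent.Blocks.Defect.OrbitBlock
import Cfsg.Agent.Blocks.Defect.LocalBlocks
import Cfsg.Agent.Chars.Induced.Clifford
import Cfsg.Agent.S0932

/-!
# Reduction to the stabilizer of a character of a normal `p'`-subgroup

For a character `θ` of a normal `p'`-subgroup with idempotent `f` and inertia group `T`, the block
idempotents `e` of `G` not killing `f` correspond to the block idempotents `e * f` of `T`; the
characters correspond by induction and the defect groups are the same.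
-/

set_option autoImplicit false
set_option linter.unusedSectionVars false
set_option linter.style.haveILetI false
open scoped MonoidAlgebra
open MonoidAlgebra (single)
open Cfsg

namespace CfsgLib.FongBlock

open CfsgLib.Blocks

section algebra

variable {k : Type*} [Field k] {G : Type*} [Group G] [Finite G]

theorem single_mul_eq_conjA_mul (x : G) (a : k[G]) :
    single x (1 : k) * a = conjA x a * single x (1 : k) := by
  refine MonoidAlgebra.ext (Finsupp.ext fun g => ?_)
  rw [MonoidAlgebra.coeff_single_mul_apply, MonoidAlgebra.coeff_mul_single_apply, coeff_conjA,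
    one_mul, mul_one]
  congr 1
  group

open scoped Classical in
/-- The part of an element supported on a subgroup. -/
noncomputable def cutTo (T : Subgroup G) : k[G] →ₗ[k] k[G] where
  toFun a := MonoidAlgebra.ofCoeff (a.coeff.filter fun g => g ∈ T)
  map_add' a b := by
    refine MonoidAlgebra.ext (Finsupp.ext fun g => ?_)
    simp only [MonoidAlgebra.coeff_ofCoeff, MonoidAlgebra.coeff_add, Finsupp.coe_add, Pi.add_apply,
      Finsupp.filter_apply]
    split_ifs <;> simp
  map_smul' r a := by
    refine MonoidAlgebra.ext (Finsupp.ext fun g => ?_)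
    simp [Finsupp.filter_apply]

theorem coeff_cutTo_of_mem {T : Subgroup G} {g : G} (a : k[G]) (hg : g ∈ T) :
    (cutTo T a).coeff g = a.coeff g := by
  classical
  show (Finsupp.filter _ a.coeff) g = _
  rw [Finsupp.filter_apply_pos]
  exact hg

theorem coeff_cutTo_of_not_mem {T : Subgroup G} {g : G} (a : k[G]) (hg : g ∉ T) :
    (cutTo T a).coeff g = 0 := by
  classical
  show (Finsupp.filter _ a.coeff) g = _
  rw [Finsupp.filter_apply_neg]
  exact hg

theorem cutTo_eq_self {T : Subgroup G} {a : k[G]} (h : IsSupportedOn a T) : cutTo T a = a := by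
  refine MonoidAlgebra.ext (Finsupp.ext fun g => ?_)
  by_cases hg : g ∈ T
  · exact coeff_cutTo_of_mem a hg
  · rw [coeff_cutTo_of_not_mem a hg, h g hg]

/-- Cutting respects multiplication by elements supported on the subgroup. -/
theorem cutTo_mul {T : Subgroup G} (a : k[G]) {f : k[G]} (hf : IsSupportedOn f T) :
    cutTo T (a * f) = cutTo T a * f := by
  classical
  haveI := Fintype.ofFinite G
  refine MonoidAlgebra.ext (Finsupp.ext fun g => ?_)
  have hsum : ∀ a : k[G], (a * f).coeff g = ∑ x : G, a.coeff x * f.coeff (x⁻¹ * g) := fun a => by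
    rw [MonoidAlgebra.coeff_mul_apply_left, Finsupp.sum_fintype _ _ (fun _ => zero_mul _)]
  by_cases hg : g ∈ T
  · rw [coeff_cutTo_of_mem _ hg, hsum, hsum]
    refine Finset.sum_congr rfl fun x _ => ?_
    by_cases hx : x ∈ T
    · rw [coeff_cutTo_of_mem _ hx]
    · rw [hf (x⁻¹ * g) fun h => hx (by simpa using T.mul_mem hg (T.inv_mem h)), mul_zero, mul_zero]
  · rw [coeff_cutTo_of_not_mem _ hg]
    exact (IsSupportedOn.mul (fun y hy => coeff_cutTo_of_not_mem a hy) hf g hg).symm

variable {T : Subgroup G} {f : k[G]}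

/-- The hypotheses on an idempotent whose conjugates outside `T` are orthogonal to it. -/
structure IsStabIdem (T : Subgroup G) (f : k[G]) : Prop where
  supported : IsSupportedOn f T
  idem : f * f = f
  fixed : IsFixedBy f T
  orth : ∀ x ∉ T, conjA x f * f = 0

theorem IsStabIdem.mem_centerIn (h : IsStabIdem T f) : f ∈ centerIn k T := ⟨h.supported, h.fixed⟩

theorem IsStabIdem.orth' (h : IsStabIdem T f) {x : G} (hx : x ∉ T) : f * conjA x f = 0 := by
  have h1 := congrArg (conjA x) (h.orth x⁻¹ fun h' => hx (by simpa using T.inv_mem h'))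
  rwa [map_mul, conjA_conjA, mul_inv_cancel, conjA_one_left, map_zero] at h1

/-- Both-sided products with `f` are supported on `T`. -/
theorem IsStabIdem.isSupportedOn_mul_mul (h : IsStabIdem T f) (a : k[G]) :
    IsSupportedOn (f * a * f) T := by
  induction a using MonoidAlgebra.induction_on with
  | of x =>
    show IsSupportedOn (f * single x 1 * f) T
    by_cases hx : x ∈ T
    · exact (h.supported.mul (IsSupportedOn.single hx 1)).mul h.supported
    · rw [mul_assoc, single_mul_eq_conjA_mul, ← mul_assoc, h.orth' hx, zero_mul]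
      exact IsSupportedOn.zero
  | add a b ha hb => rw [mul_add, add_mul]; exact ha.add hb
  | smul r a ha =>
    rw [mul_smul_comm, smul_mul_assoc]
    intro g hg
    rw [MonoidAlgebra.coeff_smul_apply, ha g hg, smul_zero]

theorem IsStabIdem.mul_central (h : IsStabIdem T f) {e : k[G]} (he : e ∈ centerIn k ⊤) :
    e * f * f = e * f ∧ f * (e * f) = e * f ∧ e * f ∈ centerIn k T := by
  have hc : Commute f e := commute_of_isFixedBy (isSupportedOn_top f) he.2
  refine ⟨by rw [mul_assoc, h.idem], by rw [← mul_assoc, hc.eq, mul_assoc, h.idem], ?_,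
    (he.2.mono le_top).mul h.fixed⟩
  have hfe : e * f = f * e * f := by rw [hc.eq, mul_assoc, h.idem]
  rw [hfe]
  exact h.isSupportedOn_mul_mul e

/-- Central idempotents of `T` below `f` give central idempotents of `G`. -/
theorem IsStabIdem.orbit_idem (h : IsStabIdem T f) {j : k[G]} (hj : j ∈ centerIn k T)
    (hjj : j * j = j) (hjf : j * f = j) :
    orbitSum ⊤ j ∈ centerIn k ⊤ ∧ orbitSum ⊤ j * f = j ∧
      orbitSum ⊤ j * orbitSum ⊤ j = orbitSum ⊤ j := by
  classical
  have hE : orbitSum ⊤ j ∈ centerIn k ⊤ := ⟨isSupportedOn_top _, isFixedBy_orbitSum ⊤ j⟩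
  have hEf : orbitSum ⊤ j * f = j := by
    rw [orbitSum, Finset.sum_mul, Finset.sum_eq_single j]
    · exact hjf
    · intro a ha hne
      obtain ⟨x, -, rfl⟩ := mem_conjOrbit.mp ha
      have hx : x ∉ T := fun hx => hne (isFixedBy_iff_conjA.mp hj.2 x hx)
      rw [← hjf, map_mul, mul_assoc, h.orth x hx, mul_zero]
    · exact fun hn => absurd (self_mem_conjOrbit ⊤ j) hn
  refine ⟨hE, hEf, ?_⟩
  have hc : Commute f (orbitSum ⊤ j) := commute_of_isFixedBy (isSupportedOn_top f) hE.2
  have hjE : j * orbitSum ⊤ j = j := by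
    calc j * orbitSum ⊤ j = j * f * orbitSum ⊤ j := by rw [hjf]
      _ = j * j := by rw [mul_assoc, hc.eq, hEf]
      _ = j := hjj
  conv_lhs => arg 1; rw [orbitSum]
  rw [Finset.sum_mul]
  refine Finset.sum_congr rfl fun a ha => ?_
  obtain ⟨x, -, rfl⟩ := mem_conjOrbit.mp ha
  rw [← isFixedBy_iff_conjA.mp hE.2 x (Subgroup.mem_top x), ← map_mul, hjE]

/-- A central idempotent of `T` below `e * f` is `0` or `e * f`. -/
theorem IsStabIdem.orbit_eq (h : IsStabIdem T f) {e j : k[G]} (he : IsBlockIdem ⊤ e)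
    (hj : j ∈ centerIn k T) (hjj : j * j = j) (hje : j * (e * f) = j) (hj0 : j ≠ 0) :
    orbitSum ⊤ j = e := by
  obtain ⟨h1, h2, h3⟩ := h.mul_central he.1
  have hjf : j * f = j := by rw [← hje, mul_assoc, h1]
  obtain ⟨hE, hEf, hEE⟩ := h.orbit_idem hj hjj hjf
  have hje' : j * e = j := by
    have hc : Commute f e := commute_of_isFixedBy (isSupportedOn_top f) he.1.2
    calc j * e = j * f * e := by rw [hjf]
      _ = j := by rw [mul_assoc, hc.eq]; exact hje
  have hEe : orbitSum ⊤ j * e = orbitSum ⊤ j := by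
    rw [orbitSum, Finset.sum_mul]
    refine Finset.sum_congr rfl fun a ha => ?_
    obtain ⟨x, -, rfl⟩ := mem_conjOrbit.mp ha
    rw [← isFixedBy_iff_conjA.mp he.1.2 x (Subgroup.mem_top x), ← map_mul, hje']
  rcases he.2.2.2 _ hE hEE with h0 | h0
  · exact absurd (by rw [← hEf, ← hEe, h0, zero_mul]) hj0
  · rw [← hEe, h0]

theorem IsStabIdem.isBlockIdem_mul (h : IsStabIdem T f) {e : k[G]} (he : IsBlockIdem ⊤ e)
    (hef : e * f ≠ 0) : IsBlockIdem T (e * f) := by
  obtain ⟨h1, h2, h3⟩ := h.mul_central he.1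
  have hidem : e * f * (e * f) = e * f := by rw [mul_assoc, h2, ← mul_assoc, he.idem]
  refine ⟨h3, hidem, hef, fun i hi hii => ?_⟩
  by_contra hcon
  rw [not_or] at hcon
  have hj : i * (e * f) ∈ centerIn k T := mul_mem hi h3
  have hc := commute_centerIn hi h3
  have hjj : i * (e * f) * (i * (e * f)) = i * (e * f) := by
    rw [mul_assoc, ← mul_assoc (e * f), ← hc.eq, mul_assoc i (e * f) (e * f), hidem, ← mul_assoc,
      hii.eq]
  have hje : i * (e * f) * (e * f) = i * (e * f) := by rw [mul_assoc, hidem]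
  have hjf : i * (e * f) * f = i * (e * f) := by rw [mul_assoc, h1]
  apply hcon.2
  rw [← (h.orbit_idem hj hjj hjf).2.1, h.orbit_eq he hj hjj hje hcon.1]

theorem IsStabIdem.orbitSum_mul_eq (h : IsStabIdem T f) {e : k[G]} (he : IsBlockIdem ⊤ e)
    (hef : e * f ≠ 0) : orbitSum ⊤ (e * f) = e := by
  have hb := h.isBlockIdem_mul he hef
  exact h.orbit_eq he hb.1 hb.idem hb.idem hef

variable {p : ℕ} [Fact p.Prime] [CharP k p]

/-- A defect group of `e` is, up to conjugacy, one of `e * f`. -/
theorem IsStabIdem.exists_defectGroup (h : IsStabIdem T f) {e : k[G]} (he : IsBlockIdem ⊤ e)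
    (hef : e * f ≠ 0) {P : Subgroup G} (hP : IsDefectGroupIdem p ⊤ e P) :
    ∃ x : G, P.map (MulAut.conj x).toMonoidHom ≤ T ∧
      IsDefectGroupIdem p T (e * f) (P.map (MulAut.conj x).toMonoidHom) := by
  have hb := h.isBlockIdem_mul he hef
  obtain ⟨f', hf', hfix, hne⟩ := exists_fixed_member (H := ⊤) hP.2.1 le_top
    (by rw [h.orbitSum_mul_eq he hef]; exact hP.2.2.1)
  obtain ⟨x, -, rfl⟩ := mem_conjOrbit.mp hf'
  set P' := P.map (MulAut.conj x⁻¹).toMonoidHom with hP'
  have hfix' : IsFixedBy (e * f) P' := by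
    have := hfix.conjA x⁻¹
    rwa [conjA_conjA, inv_mul_cancel, conjA_one_left] at this
  have hle : P' ≤ T := by
    intro g hg
    by_contra hgT
    apply hef
    have h1 := isFixedBy_iff_conjA.mp hfix' g hg
    obtain ⟨e1, -, -⟩ := h.mul_central he.1
    rw [← e1]
    conv_lhs => rw [← h1, map_mul, mul_assoc, h.orth g hgT, mul_zero]
  have hne' : brTrunc P' (e * f) ≠ 0 := by
    have h1 := conjA_brTrunc x⁻¹ P (conjA x (e * f))
    rw [conjA_conjA, inv_mul_cancel, conjA_one_left] at h1
    rw [hP', ← h1]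
    exact fun h0 => hne ((conjA x⁻¹).map_eq_zero_iff.mp h0)
  obtain ⟨D, hD⟩ := hb.exists_defectGroup p
  refine ⟨x⁻¹, hle, hD.of_card_le hb.1 hle (hP.2.1.map _) hne' ?_⟩
  have hDe : brTrunc D e ≠ 0 := fun h0 => hD.2.2.1 (by
    rw [brTrunc_mul hD.2.1 (he.1.2.mono le_top) (h.fixed.mono hD.1), h0, zero_mul])
  obtain ⟨y, -, hy⟩ := hP.2.2.2 D le_top hD.2.1 hDe
  have hc := Subgroup.card_le_of_le hy
  rw [card_map_conj] at hc
  rw [card_map_conj]
  exact hc

end algebra

variable {p : ℕ} {M : Ideal AlgInt} [hMmax : M.IsMaximal] {G : Type*} [Group G] [Fintype G]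
  {N : Subgroup G} [hNn : N.Normal] [Fintype N]

theorem conjA_subEl (x : G) (θ : IrrCharacter N) :
    conjA x (subEl M N ({θ} : Set (IrrCharacter N))) =
      subEl M N ({Chars.Induced.conjIrr x θ} : Set (IrrCharacter N)) := by
  classical
  refine MonoidAlgebra.ext (Finsupp.ext fun g => ?_)
  rw [coeff_conjA, coeff_subEl, coeff_subEl]
  congr 1
  by_cases hg : g ∈ N
  · have hg' : x⁻¹ * g * x ∈ N := by simpa using hNn.conj_mem g hg x⁻¹
    simp only [subgroupBlockCoeff, dif_pos hg, dif_pos hg', blockCoeff, finsum_mem_singleton,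
      Chars.Induced.conjIrr_coe]
    rw [Chars.Induced.conjFun_apply, Chars.Induced.conjFun_apply]
    congr 3
    · exact congrArg _ (Subtype.ext (by simp))
  · have hg' : x⁻¹ * g * x ∉ N := fun h => hg (by
      have := hNn.conj_mem _ h x
      simpa [mul_assoc] using this)
    simp only [subgroupBlockCoeff, dif_neg hg, dif_neg hg']

theorem isStabIdem_inertia (hM : IsPModular p M) (hN : ¬ p ∣ Nat.card N) (θ : IrrCharacter N) :
    IsStabIdem (Chars.Induced.inertia N (θ : N → ℂ))
      (subEl M N ({θ} : Set (IrrCharacter N))) := by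
  have hb := isPBlock_singleton hM hN θ
  have hf := isBlockIdem_subEl hb (M := M)
  refine ⟨isSupportedOn_mono hf.1.1 (Chars.Induced.le_inertia
    (isClassFunction_of_isCharacter (isCharacter_of_isIrrCharacter θ.2))), hf.idem,
    isFixedBy_iff_conjA.mpr fun x hx => ?_, fun x hx => ?_⟩
  · rw [conjA_subEl, show Chars.Induced.conjIrr x θ = θ from Subtype.ext hx]
  · rw [conjA_subEl]
    refine (isBlockIdem_subEl (isPBlock_singleton hM hN _)).orthogonal hf fun h => hx ?_
    exact congrArg Subtype.val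
      (Set.singleton_injective (subEl_injective (isPBlock_singleton hM hN _) hb h))

/-- The idempotent of a character of a subgroup `K` containing `N`, seen from `K`. -/
theorem emb_subEl_subgroupOf {K : Subgroup G} [Fintype K] (hNK : N ≤ K) (θ : IrrCharacter N) :
    emb (kres M) K.subtype (subEl M (N.subgroupOf K)
      ({Chars.irrEquiv (Subgroup.subgroupOfEquivOfLe hNK).symm θ} :
        Set (IrrCharacter (N.subgroupOf K)))) = subEl M N ({θ} : Set (IrrCharacter N)) := by
  rw [subEl, subEl,
    show ({Chars.irrEquiv (Subgroup.subgroupOfEquivOfLe hNK).symm θ} :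
      Set (IrrCharacter (N.subgroupOf K))) =
        mapBlock (Subgroup.subgroupOfEquivOfLe hNK).symm ({θ} : Set (IrrCharacter N)) from
      Set.image_singleton.symm, blockEl, ← emb_comp]
  exact blockEl_mapBlock _ N.subtype_injective
    (fun a b h => Subtype.ext (Subtype.ext h) :
      Function.Injective (K.subtype.comp (N.subgroupOf K).subtype))
    (fun x => rfl) _

/-- Lying over an invariant character in a subgroup containing `N`. -/
theorem over_iff_subgroup (hM : IsPModular p M) (hN : ¬ p ∣ Nat.card N) {K : Subgroup G} [Fintype K]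
    (hNK : N ≤ K) {θ : IrrCharacter N} (hK : K ≤ Chars.Induced.inertia N (θ : N → ℂ))
    {b : Set (IrrCharacter K)} (hb : IsPBlock M b) {ψ : IrrCharacter K} (hψ : ψ ∈ b) :
    Chars.Induced.mult (fun n : N => (ψ : K → ℂ) (Subgroup.inclusion hNK n)) θ ≠ 0 ↔
      subEl M N ({θ} : Set (IrrCharacter N)) * subEl M K b = subEl M K b := by
  classical
  haveI := Fintype.ofFinite (N.subgroupOf K)
  let φ : N ≃* N.subgroupOf K := (Subgroup.subgroupOfEquivOfLe hNK).symm
  have hN' : ¬ p ∣ Nat.card (N.subgroupOf K) := by rwa [← Nat.card_congr φ.toEquiv]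
  have hinv' : IsInvariant (Chars.irrEquiv φ θ) := by
    intro g n
    rw [Chars.irrEquiv_apply, Chars.irrEquiv_apply]
    exact (Chars.Induced.mem_inertia_iff_forall.mp (hK g.2) _ _ rfl)
  have h := over_iff hM hN' hinv' hb hψ
  have hchar := Chars.isCharacter_restrict (Chars.isCharacter_coe ψ) (N.subgroupOf K)
  have hcI : classInner (fun n : N.subgroupOf K => (ψ : K → ℂ) n)
      (Chars.irrEquiv φ θ : N.subgroupOf K → ℂ) =
      classInner (fun n : N => (ψ : K → ℂ) (Subgroup.inclusion hNK n)) (θ : N → ℂ) := by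
    rw [classInner, classInner, ← Nat.card_congr φ.toEquiv]
    congr 1
    refine (Fintype.sum_equiv φ.toEquiv _ _ fun n => ?_).symm
    simp only [Chars.irrEquiv_apply]
    show _ = (ψ : K → ℂ) (φ n : K) * _
    rw [show φ.toEquiv n = φ n from rfl, φ.symm_apply_apply]
    rfl
  have hmult : classInner (fun n : N => (ψ : K → ℂ) (Subgroup.inclusion hNK n)) (θ : N → ℂ) =
      (Chars.Induced.mult (fun n : N => (ψ : K → ℂ) (Subgroup.inclusion hNK n)) θ : ℂ) :=
    Chars.Induced.classInner_eq_mult
      (Chars.isCharacter_comp (Chars.isCharacter_coe ψ) (Subgroup.inclusion hNK)) θ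
  rw [hcI, hmult, Ne, Nat.cast_eq_zero] at h
  rw [Ne, h]
  have hemb : emb (kres M) K.subtype (topEl M b) = subEl M K b := by
    rw [subEl, topEl, blockEl, blockEl, ← emb_comp]
    rfl
  rw [← emb_subEl_subgroupOf (M := M) hNK θ, ← hemb, ← map_mul]
  exact (emb_injective K.subtype_injective).eq_iff.symm

variable {θ : IrrCharacter N} {T : Subgroup G} [Fintype T]

/-- A character of the inertia group over `θ` and the induced character lie in corresponding
blocks. -/
theorem subEl_blockOf_eq (hM : IsPModular p M) (hN : ¬ p ∣ Nat.card N)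
    (hT : T = Chars.Induced.inertia N (θ : N → ℂ)) (hNT : N ≤ T) (ψ : IrrCharacter T)
    (hψ : Chars.Induced.mult (fun n : N => (ψ : T → ℂ) (Subgroup.inclusion hNT n)) θ ≠ 0)
    (η : IrrCharacter G) (hη : indFun T (ψ : T → ℂ) = (η : G → ℂ)) :
    subEl M T (blockOf M (ψ : T → ℂ)) =
      topEl M (blockOf M (η : G → ℂ)) * subEl M N ({θ} : Set (IrrCharacter N)) := by
  classical
  have hb : IsPBlock M (blockOf M (ψ : T → ℂ)) := ⟨ψ, rfl⟩
  have hB : IsPBlock M (blockOf M (η : G → ℂ)) := ⟨η, rfl⟩
  set b := blockOf M (ψ : T → ℂ) with hbdef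
  set f := subEl M N ({θ} : Set (IrrCharacter N)) with hfdef
  set e := topEl M (blockOf M (η : G → ℂ)) with hedef
  set β := subEl M T b with hβdef
  have he : IsBlockIdem ⊤ e := isBlockIdem_topEl hB
  have hβ : IsBlockIdem T β := isBlockIdem_subEl hb
  have hs : IsStabIdem T f := hT ▸ isStabIdem_inertia hM hN θ
  have hfβ : f * β = β :=
    (over_iff_subgroup hM hN hNT hT.le hb (self_mem_blockOf ψ)).mp hψ
  have hclass : ∀ g : G, cutTo T (classSumIn (kres M) ⊤ g) ∈ centerIn (kres M) T ∧
      ¬ Sees β (cutTo T (classSumIn (kres M) ⊤ g) - redC M (centralChar (η : G → ℂ) g) • 1) := by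
    intro g
    let a : T → ℂ := fun t => if IsConj g (t : G) then 1 else 0
    have ha : IsCentralElt (ofFun a) := fun n s => by
      show a (s * n * s⁻¹) = a n
      simp only [a]
      refine if_congr ⟨fun hh => hh.trans ?_, fun hh => hh.trans ?_⟩ rfl rfl
      · exact isConj_iff.mpr ⟨(s : G)⁻¹, by simp [mul_assoc]⟩
      · exact isConj_iff.mpr ⟨(s : G), by simp⟩
    have hloc : IsLocalElt M (ofFun a) := fun n => by
      show MemLocalRing M (a n)
      simp only [a]
      split_ifs
      · exact (localRing M).one_mem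
      · exact (localRing M).zero_mem
    set x : centerK M T := centerRed M T ⟨ofFun a, ha, hloc⟩ with hx
    have hemb : emb (kres M) T.subtype (x : MonoidAlgebra (kres M) T) =
        cutTo T (classSumIn (kres M) ⊤ g) := by
      refine MonoidAlgebra.ext (Finsupp.ext fun y => ?_)
      by_cases hy : y ∈ T
      · have hc : (∃ h ∈ (⊤ : Subgroup G), h * g * h⁻¹ = y) ↔ IsConj g y := by simp [isConj_iff]
        have h1 := coeff_emb_apply (k := kres M) T.subtype_injective
          (x : MonoidAlgebra (kres M) T) ⟨y, hy⟩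
        rw [Subgroup.coe_subtype] at h1
        rw [h1, coeff_cutTo_of_mem _ hy, coeff_classSumIn, hx, coe_centerRed, coeff_reduceHom,
          ← redC_of_mem]
        show redC M (a ⟨y, hy⟩) = _
        by_cases hgy : IsConj g y
        · rw [if_pos (hc.mpr hgy)]; simp only [a, hgy, if_true, redC_one]
        · rw [if_neg (mt hc.mp hgy)]; simp only [a, hgy, if_false, redC_zero]
      · rw [coeff_emb_of_not_mem _ (by rwa [Subgroup.range_subtype]), coeff_cutTo_of_not_mem _ hy]
    have hval : centralChar (η : G → ℂ) g = omega (ψ : T → ℂ) (ofFun a) := by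
      rw [← hη, ← Cfsg.Agent.S0932.result T _ (Chars.isCharacter_coe ψ) g,
        BlocksCover.inducedCentralChar_eq_sum, omega_ofFun]
      refine Finset.sum_congr rfl fun n _ => ?_
      simp only [a]
      split_ifs <;> simp
    rw [← hemb]
    refine ⟨?_, (not_sees_sub_smul_one_iff T.subtype_injective hb (self_mem_blockOf ψ) x _).mpr ?_⟩
    · have := (emb_mem_centerIn_iff (k := kres M) T.subtype_injective
        (x : MonoidAlgebra (kres M) T)).mpr x.2
      rwa [Subgroup.range_subtype] at this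
    · rw [hx, omegaBar_centerRed, redC_of_mem (memLocalRing_centralChar η g)]
      congr 1
      exact Subtype.ext hval.symm
  have key : ∀ z ∈ Submodule.span (kres M)
      {a | ∃ x ∈ (⊤ : Subgroup G), e.coeff x ≠ 0 ∧ a = classSumIn (kres M) ⊤ x},
      z ∈ centerIn (kres M) ⊤ ∧ cutTo T z ∈ centerIn (kres M) T ∧
        ∃ c : kres M, ¬ Sees e (z - c • 1) ∧ ¬ Sees β (cutTo T z - c • 1) := by
    intro z hz
    induction hz using Submodule.span_induction with
    | mem z hz =>
      obtain ⟨g, -, -, rfl⟩ := hz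
      exact ⟨classSumIn_mem_centerIn (Subgroup.mem_top g), (hclass g).1, _,
        (not_sees_classSum_sub_iff hB (self_mem_blockOf η) g _).mpr rfl, (hclass g).2⟩
    | zero =>
      refine ⟨zero_mem _, by rw [map_zero]; exact zero_mem _, 0, ?_, ?_⟩
      · rw [zero_smul, sub_zero]; exact not_sees_zero
      · rw [map_zero, zero_smul, sub_zero]; exact not_sees_zero
    | add z z' _ _ hz hz' =>
      obtain ⟨h1, h2, c, h3, h4⟩ := hz
      obtain ⟨h1', h2', c', h3', h4'⟩ := hz'
      refine ⟨add_mem h1 h1', by rw [map_add]; exact add_mem h2 h2', c + c', ?_, ?_⟩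
      · rw [add_smul, add_sub_add_comm]
        exact he.not_sees_add (sub_mem h1 (Subalgebra.smul_mem _ (one_mem _) c))
          (sub_mem h1' (Subalgebra.smul_mem _ (one_mem _) c')) h3 h3'
      · rw [map_add, add_smul, add_sub_add_comm]
        exact hβ.not_sees_add (sub_mem h2 (Subalgebra.smul_mem _ (one_mem _) c))
          (sub_mem h2' (Subalgebra.smul_mem _ (one_mem _) c')) h4 h4'
    | smul r z _ hz =>
      obtain ⟨h1, h2, c, h3, h4⟩ := hz
      refine ⟨Subalgebra.smul_mem _ h1 r, by rw [map_smul]; exact Subalgebra.smul_mem _ h2 r,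
        r * c, ?_, ?_⟩
      · rw [mul_smul, ← smul_sub]; exact not_sees_smul r h3
      · rw [map_smul, mul_smul, ← smul_sub]; exact not_sees_smul r h4
  obtain ⟨-, -, c, h1, h2⟩ := key e (mem_span_classSumIn he.1)
  have hc : c = 1 := by
    by_contra hne
    apply h1
    intro hn
    have h3 : (e - c • 1) * e = (1 - c) • e := by
      rw [sub_mul, he.idem, smul_mul_assoc, one_mul, sub_smul, one_smul]
    rw [h3] at hn
    have h4 := hn.smul (1 - c)⁻¹
    rw [inv_smul_smul₀ (sub_ne_zero.mpr (Ne.symm hne))] at h4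
    exact he.ne_zero (idempotent_eq_zero_of_isNilpotent he.idem h4)
  subst hc
  rw [one_smul] at h2
  have hne : e * f * β ≠ 0 := by
    intro h0
    apply h2
    intro hn
    have hcut : cutTo T e * β = e * f * β := by
      rw [← cutTo_eq_self (hs.mul_central he.1).2.2.1, cutTo_mul _ hs.supported, mul_assoc, hfβ]
    rw [sub_mul, hcut, h0, one_mul, zero_sub, isNilpotent_neg_iff] at hn
    exact hβ.ne_zero (idempotent_eq_zero_of_isNilpotent hβ.idem hn)
  have hef : e * f ≠ 0 := fun h => hne (by rw [h, zero_mul])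
  exact ((hs.isBlockIdem_mul he hef).eq_of_mul_ne_zero hβ hne).symm

/-- The block of the inertia group below a block over `θ`: induction is onto, and defect groups
agree. -/
theorem exists_stab_block [Fact p.Prime] (hM : IsPModular p M) (hN : ¬ p ∣ Nat.card N)
    (hT : T = Chars.Induced.inertia N (θ : N → ℂ)) (hNT : N ≤ T) {B : Set (IrrCharacter G)}
    (hB : IsPBlock M B) {χ : IrrCharacter G} (hχ : χ ∈ B)
    (hcov : classInner (fun n : N => (χ : G → ℂ) n) (θ : N → ℂ) ≠ 0) :
    ∃ b : Set (IrrCharacter T), IsPBlock M b ∧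
      (∀ ψ ∈ b, Chars.Induced.mult (fun n : N => (ψ : T → ℂ) (Subgroup.inclusion hNT n)) θ ≠ 0 ∧
        ∃ η ∈ B, indFun T (ψ : T → ℂ) = (η : G → ℂ)) ∧
      (∀ η ∈ B, ∃ ψ ∈ b, indFun T (ψ : T → ℂ) = (η : G → ℂ)) ∧
      ∀ P : Subgroup G, IsDefectGroup p M B P → ∃ x : G,
        P.map (MulAut.conj x).toMonoidHom ≤ T ∧
        IsDefectGroup p M b ((P.map (MulAut.conj x).toMonoidHom).subgroupOf T) := by
  classical
  haveI := charP_kres hM
  have hθb := isPBlock_singleton hM hN θ
  set f := subEl M N ({θ} : Set (IrrCharacter N)) with hfdef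
  set e := topEl M B with hedef
  have he : IsBlockIdem ⊤ e := isBlockIdem_topEl hB
  have hs : IsStabIdem T f := hT ▸ isStabIdem_inertia hM hN θ
  have hef : e * f ≠ 0 := topEl_mul_subEl_ne_zero hB hθb hχ (Set.mem_singleton θ) hcov
  obtain ⟨b, hb, hbe⟩ := exists_subEl_eq (hs.isBlockIdem_mul he hef)
  have hfb : f * subEl M T b = subEl M T b := by rw [hbe]; exact (hs.mul_central he.1).2.1
  refine ⟨b, hb, fun ψ hψ => ?_, fun η hη => ?_, fun P hP => ?_⟩
  · have hover := (over_iff_subgroup hM hN hNT hT.le hb hψ).mpr hfb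
    refine ⟨hover, ⟨_, Chars.Induced.isIrrCharacter_indFun_inertia hT hNT ψ hover⟩, ?_, rfl⟩
    set η : IrrCharacter G := ⟨_, Chars.Induced.isIrrCharacter_indFun_inertia hT hNT ψ hover⟩
    have h1 := subEl_blockOf_eq hM hN hT hNT ψ hover η rfl
    rw [← eq_blockOf_of_mem hb hψ, hbe] at h1
    have hB' : IsPBlock M (blockOf M (η : G → ℂ)) := ⟨η, rfl⟩
    have he' := isBlockIdem_topEl hB' (M := M)
    have h2 : topEl M (blockOf M (η : G → ℂ)) = e := by
      rw [← hs.orbitSum_mul_eq he' (h1 ▸ hef), ← h1, hs.orbitSum_mul_eq he hef]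
    rw [← topEl_injective hB' hB h2]
    exact self_mem_blockOf η
  · obtain ⟨θ', hθ'⟩ := BlocksCover.exists_constituent η N
    have hne := topEl_mul_subEl_ne_zero (M := M) hB (isPBlock_singleton hM hN θ') hη
      (Set.mem_singleton θ') hθ'
    obtain ⟨x, hx⟩ : ∃ x, Chars.Induced.conjIrr x θ = θ' := by
      by_contra hcon
      simp only [not_exists] at hcon
      apply hne
      rw [← hedef, ← hs.orbitSum_mul_eq he hef, orbitSum, Finset.sum_mul]
      refine Finset.sum_eq_zero fun a ha => ?_
      obtain ⟨x, -, rfl⟩ := mem_conjOrbit.mp ha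
      rw [map_mul, conjA_subEl, mul_assoc,
        (isBlockIdem_subEl (isPBlock_singleton hM hN _)).orthogonal
          (isBlockIdem_subEl (isPBlock_singleton hM hN θ')) fun h => hcon x
            (Set.singleton_injective (subEl_injective (isPBlock_singleton hM hN _)
              (isPBlock_singleton hM hN θ') h)), mul_zero]
    have hm : Chars.Induced.mult (fun n : N => (η : G → ℂ) n) θ ≠ 0 := by
      rw [← Chars.Induced.mult_restrict_conjIrr
        (isClassFunction_of_isCharacter (isCharacter_of_isIrrCharacter η.2)) x θ, hx]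
      exact (BlocksCover.mult_ne_zero_iff η θ').mp hθ'
    obtain ⟨ψ, hψ, hind⟩ := Chars.Induced.exists_indFun_eq hT hNT η hm
    refine ⟨ψ, ?_, hind⟩
    have h1 := subEl_blockOf_eq hM hN hT hNT ψ hψ η hind
    rw [← eq_blockOf_of_mem hB hη, ← hedef, ← hbe] at h1
    rw [← subEl_injective ⟨ψ, rfl⟩ hb h1]
    exact self_mem_blockOf ψ
  · obtain ⟨x, hx, hd⟩ := hs.exists_defectGroup he hef ((isDefectGroup_topEl_iff hB P).mp hP)
    refine ⟨x, hx, (isDefectGroup_subgroupOf_iff hx hb).mpr ?_⟩
    rw [hbe]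
    exact hd

end CfsgLib.FongBlock
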